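import Mathlib.GroupTheory.GroupAction.Basic
import Mathlib.Algebra.Group.Action.Pointwise.Finset
import Mathlib.Combinatorics.Enumerative.DoubleCounting
import Mathlib.Algebra.Order.BigOperators.Group.Finset
import Mathlib.Data.Fintype.Powerset
import Mathlib.Tactic

/-! Fixed points of pronormal subgroups (S3399): blocks, closure, levels. -/

set_option autoImplicit false
set_option linter.unusedSectionVars false
open Finset
open scoped Pointwise Classical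

namespace Cfsg.Lib.PrF

variable {G Ω : Type} [Group G] [Fintype Ω] [DecidableEq Ω] [MulAction G Ω]

/-- `g` fixes `S` pointwise. -/
def Fx (S : Finset Ω) (g : G) : Prop := ∀ s ∈ S, g • s = s

/-- `X` is invariant under the pointwise stabilizer of `S`. -/
def Inv (G : Type) [Group G] [MulAction G Ω] (S X : Finset Ω) : Prop :=
  ∀ g : G, Fx S g → ∀ x ∈ X, g • x ∈ X

/-- orbit under the pointwise stabilizer. -/
noncomputable def orb (G : Type) [Group G] [MulAction G Ω] (S : Finset Ω) (w : Ω) : Finset Ω :=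
  univ.filter fun x => ∃ g : G, Fx S g ∧ g • w = x

/-- closure: intersection of all blocks containing `S`. -/
noncomputable def cl (𝓑 : Set (Finset Ω)) (S : Finset Ω) : Finset Ω :=
  univ.filter fun x => ∀ B ∈ 𝓑, S ⊆ B → x ∈ B

/-- level of `X` with respect to `B`. -/
def lv (B X : Finset Ω) : ℤ := ∑ x ∈ X, if x ∈ B then (-1 : ℤ) else 1

theorem Fx.one (S : Finset Ω) : Fx S (1 : G) := fun _ _ => one_smul _ _
theorem Fx.mul {S : Finset Ω} {g h : G} (a : Fx S g) (b : Fx S h) : Fx S (g * h) :=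
  fun s hs => by rw [mul_smul, b s hs, a s hs]
theorem Fx.inv {S : Finset Ω} {g : G} (a : Fx S g) : Fx S g⁻¹ :=
  fun s hs => by rw [inv_smul_eq_iff, a s hs]
theorem Fx.mono {S T : Finset Ω} {g : G} (a : Fx T g) (h : S ⊆ T) : Fx S g :=
  fun s hs => a s (h hs)
theorem Fx.smul_eq {S : Finset Ω} {g : G} (a : Fx S g) : g • S = S := by
  ext x
  rw [← Finset.inv_smul_mem_iff]
  constructor
  · intro h; have := a _ h; rw [smul_inv_smul] at this; rwa [this]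
  · intro h; rwa [a.inv x h]
theorem Fx.mem_iff {S : Finset Ω} {g : G} (a : Fx S g) {x : Ω} : g • x ∈ S ↔ x ∈ S := by
  constructor
  · intro h; have := a _ h; rw [smul_left_cancel_iff] at this; rwa [this] at h
  · intro h; rwa [a x h]
theorem Fx.conj {S : Finset Ω} {h : G} (a : Fx S h) (g : G) : Fx (g • S) (g * h * g⁻¹) := by
  intro s hs
  obtain ⟨y, hy, rfl⟩ := Finset.mem_smul_finset.1 hs
  simp [mul_smul, a y hy]

theorem Inv.mono {S T X : Finset Ω} (a : Inv G S X) (h : S ⊆ T) : Inv G T X :=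
  fun g hg => a g (hg.mono h)
theorem Inv.smul_eq {S X : Finset Ω} (a : Inv G S X) {g : G} (hg : Fx S g) : g • X = X := by
  ext x
  rw [← Finset.inv_smul_mem_iff]
  exact ⟨fun h => by simpa using a g hg _ h, fun h => a _ hg.inv _ h⟩
theorem Inv.sdiff {S X Y : Finset Ω} (a : Inv G S X) (b : Inv G S Y) : Inv G S (X \ Y) := by
  intro g hg x hx
  rw [mem_sdiff] at hx ⊢
  exact ⟨a g hg x hx.1, fun h => hx.2 (by simpa using b _ hg.inv _ h)⟩
theorem Inv.inter {S X Y : Finset Ω} (a : Inv G S X) (b : Inv G S Y) : Inv G S (X ∩ Y) := by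
  intro g hg x hx
  rw [mem_inter] at hx ⊢
  exact ⟨a g hg x hx.1, b g hg x hx.2⟩
theorem Inv.self (S : Finset Ω) : Inv G S S := fun g hg x hx => by rwa [hg x hx]
theorem Inv.univ (S : Finset Ω) : Inv G S univ := fun _ _ _ _ => mem_univ _

theorem mem_orb {S : Finset Ω} {w x : Ω} : x ∈ orb G S w ↔ ∃ g : G, Fx S g ∧ g • w = x := by
  simp [orb]
theorem self_orb (S : Finset Ω) (w : Ω) : w ∈ orb G S w := mem_orb.2 ⟨1, Fx.one S, one_smul _ _⟩
theorem orb_inv (S : Finset Ω) (w : Ω) : Inv G S (orb G S w) := by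
  intro g hg x hx
  obtain ⟨h, hh, rfl⟩ := mem_orb.1 hx
  exact mem_orb.2 ⟨g * h, hg.mul hh, mul_smul _ _ _⟩
theorem orb_sub {S X : Finset Ω} (a : Inv G S X) {w : Ω} (h : w ∈ X) : orb G S w ⊆ X := by
  intro x hx
  obtain ⟨g, hg, rfl⟩ := mem_orb.1 hx
  exact a g hg w h
theorem orb_eq {S : Finset Ω} {w x : Ω} (h : x ∈ orb G S w) : orb G S x = orb G S w := by
  apply Subset.antisymm (orb_sub (orb_inv S w) h)
  obtain ⟨g, hg, rfl⟩ := mem_orb.1 h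
  exact orb_sub (orb_inv S _) (mem_orb.2 ⟨g⁻¹, hg.inv, inv_smul_smul _ _⟩)

theorem mem_cl {𝓑 : Set (Finset Ω)} {S : Finset Ω} {x : Ω} :
    x ∈ cl 𝓑 S ↔ ∀ B ∈ 𝓑, S ⊆ B → x ∈ B := by simp [cl]
theorem sub_cl (𝓑 : Set (Finset Ω)) (S : Finset Ω) : S ⊆ cl 𝓑 S :=
  fun _ hx => mem_cl.2 fun _ _ h => h hx
theorem cl_sub {𝓑 : Set (Finset Ω)} {S B : Finset Ω} (hB : B ∈ 𝓑) (h : S ⊆ B) : cl 𝓑 S ⊆ B :=
  fun _ hx => mem_cl.1 hx B hB h
theorem cl_le {𝓑 : Set (Finset Ω)} {S T : Finset Ω} (h : S ⊆ cl 𝓑 T) : cl 𝓑 S ⊆ cl 𝓑 T :=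
  fun _ hx => mem_cl.2 fun B hB hT => mem_cl.1 hx B hB (h.trans (cl_sub hB hT))
theorem cl_mono {𝓑 : Set (Finset Ω)} {S T : Finset Ω} (h : S ⊆ T) : cl 𝓑 S ⊆ cl 𝓑 T :=
  cl_le (h.trans (sub_cl 𝓑 T))
theorem cl_cl (𝓑 : Set (Finset Ω)) (S : Finset Ω) : cl 𝓑 (cl 𝓑 S) = cl 𝓑 S :=
  Subset.antisymm (cl_le Subset.rfl) (sub_cl _ _)

theorem lv_eq (B X : Finset Ω) : lv B X = (X.card : ℤ) - 2 * ((X ∩ B).card : ℤ) := by
  unfold lv
  rw [sum_ite, sum_const, sum_const, filter_mem_eq_inter]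
  have := card_filter_add_card_filter_not (s := X) (fun x => x ∈ B)
  rw [filter_mem_eq_inter] at this
  simp only [smul_neg, nsmul_eq_mul, mul_one]
  omega
theorem lv_sdiff (B : Finset Ω) {X Y : Finset Ω} (h : Y ⊆ X) : lv B (X \ Y) = lv B X - lv B Y := by
  unfold lv
  rw [← sum_sdiff h]; ring
theorem lv_of_sub {B X : Finset Ω} (h : X ⊆ B) : lv B X = -(X.card : ℤ) := by
  rw [lv_eq, inter_eq_left.2 h]; ring
theorem lv_smul (g : G) (B X : Finset Ω) : lv (g • B) (g • X) = lv B X := by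
  rw [lv_eq, lv_eq, ← Finset.smul_finset_inter, card_smul_finset, card_smul_finset]

/-- a sum over a union of classes. -/
theorem sum_cls (c : Ω → Finset Ω) (w : Ω → ℤ) (X : Finset Ω)
    (h : ∀ x ∈ X, c x ⊆ X ∧ x ∈ c x ∧ ∀ y ∈ c x, c y = c x)
    (hw : ∀ x ∈ X, 0 ≤ ∑ y ∈ c x, w y) : 0 ≤ ∑ y ∈ X, w y := by
  induction X using Finset.strongInduction with
  | H X ih =>
    rcases X.eq_empty_or_nonempty with rfl | ⟨x, hx⟩
    · simp
    obtain ⟨h1, h2, h3⟩ := h x hx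
    rw [← sum_sdiff h1]
    refine add_nonneg (ih _ (sdiff_ssubset h1 ⟨x, h2⟩) ?_ fun y hy => hw y (mem_sdiff.1 hy).1)
      (hw x hx)
    intro y hy
    obtain ⟨hy1, hy2⟩ := mem_sdiff.1 hy
    obtain ⟨k1, k2, k3⟩ := h y hy1
    refine ⟨fun z hz => mem_sdiff.2 ⟨k1 hz, fun hz' => hy2 ?_⟩, k2, k3⟩
    rw [← h3 z hz', k3 z hz]; exact k2

/-- if each class meets `R` in at most its level, then `#R` is at most the total level. -/
theorem card_le_lv (c : Ω → Finset Ω) (B X R : Finset Ω) (hR : R ⊆ X)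
    (h : ∀ x ∈ X, c x ⊆ X ∧ x ∈ c x ∧ ∀ y ∈ c x, c y = c x)
    (hw : ∀ x ∈ X, (((c x) ∩ R).card : ℤ) ≤ lv B (c x)) : (R.card : ℤ) ≤ lv B X := by
  have key : ∀ Y : Finset Ω, ∑ y ∈ Y, ((if y ∈ B then (-1 : ℤ) else 1) - if y ∈ R then 1 else 0)
      = lv B Y - ((Y ∩ R).card : ℤ) := by
    intro Y
    rw [sum_sub_distrib, sum_boole, filter_mem_eq_inter]; rfl
  have := sum_cls c (fun y => (if y ∈ B then (-1 : ℤ) else 1) - if y ∈ R then 1 else 0) X h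
    (fun x hx => by rw [key]; have := hw x hx; omega)
  rw [key, inter_eq_right.2 hR] at this
  omega

/-- the configuration extracted from a minimal counterexample. -/
structure Cf (G : Type) [Group G] [MulAction G Ω] (𝓑 : Set (Finset Ω)) : Prop where
  ne : 𝓑.Nonempty
  sm : ∀ B ∈ 𝓑, ∀ g : G, g • B ∈ 𝓑
  W : ∀ B ∈ 𝓑, ∀ B' ∈ 𝓑, ∃ h : G, Fx (B ∩ B') h ∧ h • B = B'
  N : ∀ B ∈ 𝓑, ∀ B' ∈ 𝓑, ∀ D : Finset Ω, D.Nonempty → D ⊆ B' → Disjoint D B → ¬ Inv G B D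
  L : ∀ B ∈ 𝓑, ∀ S ⊆ B, ∀ w ∈ B, ¬ orb G S w ⊆ B →
    ((orb G S w).card < Fintype.card Ω ∨ 1 < (cl 𝓑 (insert w S) ∩ orb G S w).card) →
    ((cl 𝓑 (insert w S) ∩ orb G S w).card : ℤ) ≤ lv B (orb G S w)
  tr : ∀ x y : Ω, ∃ g : G, g • x = y
  big : ∀ B ∈ 𝓑, Fintype.card Ω ≤ 2 * B.card
  nu : univ ∉ 𝓑

variable {𝓑 : Set (Finset Ω)}

theorem cl_smul (sm : ∀ B ∈ 𝓑, ∀ g : G, g • B ∈ 𝓑) (g : G) (S : Finset Ω) :
    cl 𝓑 (g • S) = g • cl 𝓑 S := by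
  ext x
  rw [← Finset.inv_smul_mem_iff, mem_cl, mem_cl]
  constructor
  · intro h B hB hS
    rw [Finset.inv_smul_mem_iff]
    exact h _ (sm B hB g) (Finset.smul_finset_subset_smul_finset hS)
  · intro h B hB hS
    have := h _ (sm B hB g⁻¹) (by
      rw [Finset.subset_smul_finset_iff, inv_inv]; exact hS)
    rwa [Finset.smul_mem_smul_finset_iff] at this

theorem orb_smul (g : G) (S : Finset Ω) (w : Ω) : orb G (g • S) (g • w) = g • orb G S w := by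
  ext x
  rw [← Finset.inv_smul_mem_iff, mem_orb, mem_orb]
  constructor
  · rintro ⟨h, hh, rfl⟩
    refine ⟨g⁻¹ * h * g⁻¹⁻¹, ?_, by simp [mul_smul]⟩
    simpa using hh.conj g⁻¹
  · rintro ⟨h, hh, e⟩
    exact ⟨_, hh.conj g, by simp [mul_smul, e]⟩

namespace Cf
variable (C : Cf G 𝓑)
include C

theorem cl_inv (S : Finset Ω) : Inv G S (cl 𝓑 S) := by
  intro g hg x hx
  have := cl_smul C.sm g S
  rw [hg.smul_eq] at this
  rw [this]; exact Finset.smul_mem_smul_finset hx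

theorem W' {B B' S : Finset Ω} (hB : B ∈ 𝓑) (hB' : B' ∈ 𝓑) (h : S ⊆ B) (h' : S ⊆ B') :
    ∃ g : G, Fx S g ∧ g • B = B' := by
  obtain ⟨g, hg, e⟩ := C.W B hB B' hB'
  exact ⟨g, hg.mono (subset_inter h h'), e⟩

theorem card_eq {B B' : Finset Ω} (hB : B ∈ 𝓑) (hB' : B' ∈ 𝓑) : B.card = B'.card := by
  obtain ⟨g, -, rfl⟩ := C.W B hB B' hB'
  rw [card_smul_finset]

theorem mem_cl_of_orb {B S : Finset Ω} (hB : B ∈ 𝓑) (h : S ⊆ B) {w : Ω} (ho : orb G S w ⊆ B) :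
    w ∈ cl 𝓑 S := by
  refine mem_cl.2 fun B' hB' h' => ?_
  obtain ⟨g, hg, rfl⟩ := C.W' hB hB' h h'
  exact Finset.inv_smul_mem_iff.1 (ho (mem_orb.2 ⟨g⁻¹, hg.inv, rfl⟩))

/-- the block bound for one orbit. -/
theorem L' {B S : Finset Ω} (hB : B ∈ 𝓑) (h : S ⊆ B) (hS : S.Nonempty) {w : Ω} (hw : w ∈ B)
    (hc : w ∉ cl 𝓑 S) : ((cl 𝓑 (insert w S) ∩ orb G S w).card : ℤ) ≤ lv B (orb G S w) := by
  refine C.L B hB S h w hw (fun ho => hc (C.mem_cl_of_orb hB h ho)) (Or.inl ?_)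
  obtain ⟨s, hs⟩ := hS
  refine card_lt_card (ssubset_univ_iff.2 fun e => ?_)
  obtain ⟨g, hg, e⟩ := mem_orb.1 (e ▸ mem_univ s : s ∈ orb G S w)
  exact hc (sub_cl _ _ (hg.mem_iff.1 (e ▸ hs)))

theorem lv_orb {B S : Finset Ω} (hB : B ∈ 𝓑) (h : S ⊆ B) (hS : S.Nonempty) {w : Ω}
    (hc : w ∉ cl 𝓑 S) : 1 ≤ lv B (orb G S w) := by
  rcases (orb G S w ∩ B).eq_empty_or_nonempty with e | ⟨x, hx⟩
  · rw [lv_eq, e]
    have := card_pos.2 ⟨w, self_orb (G := G) S w⟩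
    simp only [card_empty]; omega
  · obtain ⟨h1, h2⟩ := mem_inter.1 hx
    have hx' : x ∉ cl 𝓑 S := fun hx' => hc (orb_sub (C.cl_inv S) hx' (by
      rw [orb_eq h1]; exact self_orb S w))
    have := C.L' hB h hS h2 hx'
    rw [orb_eq h1] at this
    have h3 : 0 < (cl 𝓑 (insert x S) ∩ orb G S w).card :=
      card_pos.2 ⟨x, mem_inter.2 ⟨sub_cl _ _ (mem_insert_self _ _), h1⟩⟩
    omega

omit C in
theorem orb_cls {S X : Finset Ω} (hX : Inv G S X) :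
    ∀ x ∈ X, orb G S x ⊆ X ∧ x ∈ orb G S x ∧ ∀ y ∈ orb G S x, orb G S y = orb G S x :=
  fun x hx => ⟨orb_sub hX hx, self_orb S x, fun _ hy => orb_eq hy⟩

/-- points in different orbits are at most the level. -/
theorem le_lv {B S X R : Finset Ω} (hB : B ∈ 𝓑) (h : S ⊆ B) (hS : S.Nonempty) (hX : Inv G S X)
    (hd : ∀ x ∈ X, x ∉ cl 𝓑 S) (hR : R ⊆ X)
    (hr : ∀ x ∈ R, ∀ y ∈ R, y ∈ orb G S x → x = y) : (R.card : ℤ) ≤ lv B X := by
  refine card_le_lv (orb G S) B X R hR (orb_cls hX) fun x hx => ?_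
  refine le_trans ?_ (C.lv_orb hB h hS (hd x hx))
  have : (orb G S x ∩ R).card ≤ 1 := card_le_one.2 fun a ha b hb =>
    hr a (mem_inter.1 ha).2 b (mem_inter.1 hb).2
      (by rw [orb_eq (mem_inter.1 ha).1]; exact (mem_inter.1 hb).1)
  omega

theorem lv_nonneg {B S X : Finset Ω} (hB : B ∈ 𝓑) (h : S ⊆ B) (hS : S.Nonempty) (hX : Inv G S X)
    (hd : ∀ x ∈ X, x ∉ cl 𝓑 S) : 0 ≤ lv B X := by
  simpa using C.le_lv hB h hS hX hd (empty_subset X) (by simp)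

theorem lv_pos {B S X : Finset Ω} (hB : B ∈ 𝓑) (h : S ⊆ B) (hS : S.Nonempty) (hX : Inv G S X)
    (hd : ∀ x ∈ X, x ∉ cl 𝓑 S) (hn : X.Nonempty) : 1 ≤ lv B X := by
  obtain ⟨x, hx⟩ := hn
  simpa using C.le_lv hB h hS hX hd (singleton_subset_iff.2 hx) (by simp)

theorem lv_mono {B S X Y : Finset Ω} (hB : B ∈ 𝓑) (h : S ⊆ B) (hS : S.Nonempty) (hX : Inv G S X)
    (hY : Inv G S Y) (hd : ∀ x ∈ X, x ∉ cl 𝓑 S) (hs : Y ⊆ X) : lv B Y ≤ lv B X := by
  have := C.lv_nonneg hB h hS (hX.sdiff hY) fun x hx => hd x (mem_sdiff.1 hx).1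
  rw [lv_sdiff _ hs] at this
  omega

/-- points generating the same closure are at most the level. -/
theorem P_le {B S X P T : Finset Ω} (hB : B ∈ 𝓑) (h : S ⊆ B) (hS : S.Nonempty) (hX : Inv G S X)
    (hd : ∀ x ∈ X, x ∉ cl 𝓑 S) (hP : P ⊆ X) (hPB : P ⊆ B)
    (hT : ∀ x ∈ P, cl 𝓑 (insert x S) = T) : (P.card : ℤ) ≤ lv B X := by
  refine card_le_lv (orb G S) B X P hP (orb_cls hX) fun x hx => ?_
  rcases (orb G S x ∩ P).eq_empty_or_nonempty with e | ⟨y, hy⟩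
  · have := C.lv_orb hB h hS (hd x hx)
    rw [e, card_empty]; omega
  obtain ⟨h1, h2⟩ := mem_inter.1 hy
  have := C.L' hB h hS (hPB h2) (hd y (hP h2))
  rw [orb_eq h1] at this
  refine le_trans ?_ this
  have : orb G S x ∩ P ⊆ cl 𝓑 (insert y S) ∩ orb G S x := fun z hz => by
    obtain ⟨k1, k2⟩ := mem_inter.1 hz
    refine mem_inter.2 ⟨?_, k1⟩
    rw [hT y h2, ← hT z k2]; exact sub_cl _ _ (mem_insert_self _ _)
  exact_mod_cast card_le_card this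

end Cf

end Cfsg.Lib.PrF
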