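import Cfsg.Agent.Lib.PrF.A

/-! Fixed points of pronormal subgroups (S3399): transitivity, counting of blocks. -/

set_option autoImplicit false
set_option linter.unusedSectionVars false
open Finset
open scoped Pointwise Classical

namespace Cfsg.Lib.PrF

variable {G Ω : Type} [Group G] [Fintype Ω] [DecidableEq Ω] [MulAction G Ω]

/-- `t`-transitivity. -/
def Tr (G Ω : Type) [Group G] [MulAction G Ω] (t : ℕ) : Prop :=
  ∀ (S : Finset Ω) (e : Ω → Ω), S.card ≤ t → Set.InjOn e S → ∃ g : G, ∀ s ∈ S, g • s = e s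

theorem Tr.hm {t : ℕ} (h : Tr G Ω t) {A A' : Finset Ω} (e : A.card = A'.card) (ht : A.card ≤ t) :
    ∃ g : G, g • A = A' := by
  let φ := Finset.equivOfCardEq e
  obtain ⟨g, hg⟩ := h A (fun x => if hx : x ∈ A then (φ ⟨x, hx⟩ : Ω) else x) ht (by
    intro x hx y hy hxy
    simp only [mem_coe] at hx hy
    simp only [hx, hy, dif_pos] at hxy
    simpa using φ.injective (Subtype.ext hxy))
  refine ⟨g, eq_of_subset_of_card_le (fun x hx => ?_) (by rw [card_smul_finset, e])⟩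
  obtain ⟨y, hy, rfl⟩ := Finset.mem_smul_finset.1 hx
  rw [hg y hy]; simp only [hy, dif_pos]; exact (φ _).2

theorem Tr.two {t : ℕ} (h : Tr G Ω t) {S : Finset Ω} (ht : S.card < t) {w w' : Ω} (hw : w ∉ S)
    (hw' : w' ∉ S) : w' ∈ orb G S w := by
  obtain ⟨g, hg⟩ := h (insert w S) (Equiv.swap w w') (by rw [card_insert_of_notMem hw]; omega)
    (Equiv.injective _).injOn
  refine mem_orb.2 ⟨g, fun s hs => ?_, by rw [hg w (mem_insert_self _ _), Equiv.swap_apply_left]⟩
  rw [hg s (mem_insert_of_mem hs), Equiv.swap_apply_of_ne_of_ne]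
  · rintro rfl; exact hw hs
  · rintro rfl; exact hw' hs

theorem Tr.succ {t : ℕ} (h : Tr G Ω t) {S0 : Finset Ω} (h0 : S0.card = t)
    (ho : ∀ w ∉ S0, ∀ w' ∉ S0, w' ∈ orb G S0 w) : Tr G Ω (t + 1) := by
  intro S e hS he
  rcases Nat.lt_or_ge t S.card with hlt | hle
  swap; · exact h S e hle he
  obtain ⟨s, hs⟩ : S.Nonempty := card_pos.1 (by omega)
  have hc : (S.erase s).card = t := by rw [card_erase_of_mem hs]; omega
  obtain ⟨g, hg⟩ := h (S.erase s) e hc.le (he.mono (by simp [erase_subset]))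
  obtain ⟨k, hk⟩ := h.hm (A := S0) (A' := g • S.erase s) (by rw [card_smul_finset, hc, h0]) h0.le
  have h1 : k⁻¹ • g • s ∉ S0 := by
    rw [Finset.inv_smul_mem_iff, hk, Finset.smul_mem_smul_finset_iff]; simp
  have h2 : k⁻¹ • e s ∉ S0 := by
    rw [Finset.inv_smul_mem_iff, hk]
    intro hx
    obtain ⟨y, hy, hy'⟩ := Finset.mem_smul_finset.1 hx
    rw [hg y hy] at hy'
    exact (mem_erase.1 hy).1 (he (mem_erase.1 hy).2 hs hy')
  have h3 := Finset.smul_mem_smul_finset (a := k) (ho _ h1 _ h2)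
  rw [← orb_smul, smul_inv_smul, smul_inv_smul, hk] at h3
  obtain ⟨u, hu, hu'⟩ := mem_orb.1 h3
  refine ⟨u * g, fun x hx => ?_⟩
  by_cases hxs : x = s
  · rw [hxs, mul_smul, hu']
  · have hx' : x ∈ S.erase s := mem_erase.2 ⟨hxs, hx⟩
    rw [mul_smul, hu _ (Finset.smul_mem_smul_finset hx'), hg x hx']

variable {𝓑 : Set (Finset Ω)}

/-- number of blocks containing `S`. -/
noncomputable def lam (𝓑 : Set (Finset Ω)) (S : Finset Ω) : ℕ :=
  (univ.filter fun B : Finset Ω => B ∈ 𝓑 ∧ S ⊆ B).card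

namespace Cf
variable (C : Cf G 𝓑)
include C

theorem flag {t : ℕ} (h : Tr G Ω t) {S S' B B' : Finset Ω} (e : S.card = S'.card)
    (ht : S.card ≤ t) (hB : B ∈ 𝓑) (hB' : B' ∈ 𝓑) (hS : S ⊆ B) (hS' : S' ⊆ B') :
    ∃ g : G, g • S = S' ∧ g • B = B' := by
  obtain ⟨g, rfl⟩ := h.hm e ht
  obtain ⟨k, hk, e⟩ := C.W' (C.sm B hB g) hB' (Finset.smul_finset_subset_smul_finset hS) hS'
  exact ⟨k * g, by rw [mul_smul, hk.smul_eq], by rw [mul_smul, e]⟩

theorem ex_out {B : Finset Ω} (hB : B ∈ 𝓑) : ∃ x, x ∉ B := by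
  by_contra h
  push Not at h
  exact C.nu (eq_univ_iff_forall.2 h ▸ hB)

theorem orb_empty (w : Ω) : orb G ∅ w = univ :=
  eq_univ_iff_forall.2 fun x => by
    obtain ⟨g, hg⟩ := C.tr w x
    exact mem_orb.2 ⟨g, by simp [Fx], hg⟩

theorem step1 : (∀ B ∈ 𝓑, Fintype.card Ω = 2 * B.card) ∧ Tr G Ω 2 := by
  obtain ⟨B, hB⟩ := C.ne
  obtain ⟨x, hx⟩ := C.ex_out hB
  have hbig := C.big B hB
  have hn : 0 < Fintype.card Ω := Fintype.card_pos_iff.2 ⟨x⟩
  obtain ⟨a, ha⟩ : B.Nonempty := card_pos.1 (by omega)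
  have hu : lv B univ = (Fintype.card Ω : ℤ) - 2 * B.card := by rw [lv_eq]; simp
  have hcl : cl 𝓑 {a} = {a} := by
    refine (eq_of_subset_of_card_le (sub_cl _ _) ?_).symm
    by_contra hc
    have := C.L B hB ∅ (empty_subset _) a ha (by rw [C.orb_empty]; exact fun h => hx (h (mem_univ _)))
    rw [C.orb_empty, inter_univ, hu] at this
    have := this (Or.inr (by simpa using hc))
    simp only [insert_empty_eq, card_singleton] at this hc
    omega
  have hS : ({a} : Finset Ω) ⊆ B := singleton_subset_iff.2 ha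
  have hX : Inv G {a} (univ \ {a}) := (Inv.univ _).sdiff (Inv.self _)
  have hd : ∀ y ∈ univ \ {a}, y ∉ cl 𝓑 {a} := fun y hy => by rw [hcl]; exact (mem_sdiff.1 hy).2
  have hl : lv B (univ \ {a}) = (Fintype.card Ω : ℤ) - 2 * B.card + 1 := by
    rw [lv_sdiff _ (subset_univ _), hu, lv_of_sub hS]; simp
  have h1 := C.lv_pos hB hS (singleton_nonempty a) hX hd ⟨x, by
    simp only [mem_sdiff, mem_univ, mem_singleton, true_and]; rintro rfl; exact hx ha⟩
  refine ⟨fun B' hB' => by rw [← C.card_eq hB hB']; omega, ?_⟩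
  have t1 : Tr G Ω 1 := by
    intro S e hS _
    rcases S.eq_empty_or_nonempty with rfl | ⟨s, hs⟩
    · simp
    obtain ⟨g, hg⟩ := C.tr s (e s)
    exact ⟨g, fun y hy => by rw [card_le_one.1 hS y hy s hs, hg]⟩
  refine t1.succ (card_singleton a) fun w hw w' hw' => ?_
  by_contra hc
  have hne : w ≠ w' := by rintro rfl; exact hc (self_orb _ _)
  have := C.le_lv hB hS (singleton_nonempty a) hX hd (R := {w, w'})
    (by
      intro y hy
      simp only [mem_insert, mem_singleton] at hy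
      rcases hy with rfl | rfl
      · exact mem_sdiff.2 ⟨mem_univ _, hw⟩
      · exact mem_sdiff.2 ⟨mem_univ _, hw'⟩)
    (by
      intro y hy z hz hyz
      simp only [mem_insert, mem_singleton] at hy hz
      rcases hy with rfl | rfl <;> rcases hz with rfl | rfl
      · rfl
      · exact absurd hyz hc
      · exact absurd (orb_eq hyz ▸ self_orb _ _) hc
      · rfl)
  rw [card_pair hne] at this
  omega

theorem n_eq {B : Finset Ω} (hB : B ∈ 𝓑) : Fintype.card Ω = 2 * B.card := C.step1.1 B hB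

theorem lv_univ {B : Finset Ω} (hB : B ∈ 𝓑) : lv B univ = 0 := by
  rw [lv_eq, card_univ, C.n_eq hB]; simp

theorem lv_compl {B T : Finset Ω} (hB : B ∈ 𝓑) (h : T ⊆ B) : lv B (univ \ T) = T.card := by
  rw [lv_sdiff _ (subset_univ _), C.lv_univ hB, lv_of_sub h]; ring

theorem mu {t : ℕ} (h : Tr G Ω t) {B D : Finset Ω} (hB : B ∈ 𝓑) (hD : D.Nonempty)
    (hd : Disjoint D B) (hi : Inv G B D) : t < D.card := by
  by_contra hc
  have h1 : D.card ≤ B.card := by
    have := card_le_univ (D ∪ B)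
    rw [card_union_of_disjoint hd, C.n_eq hB] at this
    omega
  obtain ⟨A, hA, e⟩ := exists_subset_card_eq h1
  obtain ⟨g, rfl⟩ := h.hm e (by omega)
  exact C.N B hB _ (C.sm B hB g) _ hD (Finset.smul_finset_subset_smul_finset hA) hd hi

theorem lam_smul (g : G) (S : Finset Ω) : lam 𝓑 (g • S) = lam 𝓑 S := by
  symm
  refine card_bij (fun B _ => g • B) ?_ ?_ ?_
  · intro B hB
    simp only [mem_filter, mem_univ, true_and] at hB ⊢
    exact ⟨C.sm _ hB.1 g, Finset.smul_finset_subset_smul_finset hB.2⟩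
  · intro B _ B' _ e; exact MulAction.injective g e
  · intro B hB
    simp only [mem_filter, mem_univ, true_and] at hB ⊢
    exact ⟨g⁻¹ • B, ⟨C.sm _ hB.1 _, by rw [Finset.subset_smul_finset_iff, inv_inv]; exact hB.2⟩,
      smul_inv_smul _ _⟩

omit C in
theorem lam_pos {B S : Finset Ω} (hB : B ∈ 𝓑) (h : S ⊆ B) : 0 < lam 𝓑 S :=
  card_pos.2 ⟨B, by simp [hB, h]⟩

theorem rho {B S : Finset Ω} (hB : B ∈ 𝓑) (h : S ⊆ B) (w : Ω) :
    (orb G S w).card * lam 𝓑 (insert w S) = lam 𝓑 S * (orb G S w ∩ B).card := by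
  refine card_mul_eq_card_mul (fun (x : Ω) (B' : Finset Ω) => x ∈ B') ?_ ?_
  · intro x hx
    obtain ⟨g, hg, rfl⟩ := mem_orb.1 hx
    rw [← C.lam_smul g, Finset.smul_finset_insert, hg.smul_eq]
    unfold lam bipartiteAbove
    rw [filter_filter]
    congr 1; ext B'; simp [insert_subset_iff]; tauto
  · intro B' hB'
    simp only [mem_filter, mem_univ, true_and] at hB'
    obtain ⟨g, hg, rfl⟩ := C.W' hB hB'.1 h hB'.2
    unfold bipartiteBelow
    rw [filter_mem_eq_inter, ← card_smul_finset g (orb G S w ∩ B), Finset.smul_finset_inter,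
      (orb_inv S w).smul_eq hg]

theorem lam_half {B S : Finset Ω} (hB : B ∈ 𝓑) (h : S ⊆ B) (hS : S.Nonempty) {w : Ω}
    (hc : w ∉ cl 𝓑 S) : 2 * lam 𝓑 (insert w S) < lam 𝓑 S := by
  have h1 := C.rho hB h w
  have h2 := C.lv_orb hB h hS hc
  rw [lv_eq] at h2
  have h3 := lam_pos hB h
  have h4 : 2 * (orb G S w ∩ B).card + 1 ≤ (orb G S w).card := by omega
  by_contra hc
  push Not at hc
  nlinarith

theorem ex_small : ∃ B ∈ 𝓑, ∃ B' ∈ 𝓑, 2 * (B ∩ B').card < B.card := by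
  obtain ⟨B, hB⟩ := C.ne
  by_contra hc
  push Not at hc
  have hn := C.n_eq hB
  obtain ⟨x, -⟩ := C.ex_out hB
  have hp : 0 < Fintype.card Ω := Fintype.card_pos_iff.2 ⟨x⟩
  have h1 : ∀ w, 2 * lam 𝓑 {w} = lam 𝓑 ∅ := fun w => by
    have := C.rho hB (empty_subset _) w
    rw [C.orb_empty, univ_inter, card_univ, hn, insert_empty_eq] at this
    have hf : 0 < B.card := by omega
    nlinarith
  set 𝓕 := univ.filter fun B' : Finset Ω => B' ∈ 𝓑 ∧ ∅ ⊆ B' with h𝓕
  have h2 := sum_card_bipartiteAbove_eq_sum_card_bipartiteBelow (s := B) (t := 𝓕)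
    (fun (x : Ω) (B' : Finset Ω) => x ∈ B')
  have h3 : ∑ a ∈ B, 2 * (bipartiteAbove (fun (x : Ω) (B' : Finset Ω) => x ∈ B') 𝓕 a).card
      = B.card * 𝓕.card := by
    rw [← smul_eq_mul, ← sum_const]
    refine sum_congr rfl fun a _ => ?_
    refine Eq.trans ?_ (h1 a)
    unfold lam bipartiteAbove
    rw [h𝓕, filter_filter]
    congr 2; ext B'; simp
  have h4 : ∑ _B' ∈ 𝓕, B.card <
      ∑ B' ∈ 𝓕, 2 * (bipartiteBelow (fun (x : Ω) (B' : Finset Ω) => x ∈ B') B B').card := by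
    refine sum_lt_sum (fun B' hB' => ?_) ⟨B, by simp [h𝓕, hB], ?_⟩
    · unfold bipartiteBelow
      rw [filter_mem_eq_inter]
      exact hc B hB B' (by simpa [h𝓕] using hB')
    · unfold bipartiteBelow
      rw [filter_mem_eq_inter, inter_self]; omega
  rw [← mul_sum] at h3 h4
  rw [sum_const, smul_eq_mul, ← h2, h3, mul_comm] at h4
  omega

/-- blocks are large, and two distinct blocks share more than half of their points. -/
theorem a_big {t : ℕ} (h : Tr G Ω t) : ∃ B ∈ 𝓑, ∃ B' ∈ 𝓑, B ≠ B' ∧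
    B.card < 2 * (B ∩ B').card ∧ 2 * t + 3 ≤ B.card := by
  obtain ⟨⟨B, B'⟩, ⟨hB, hB'⟩, hm⟩ := Set.exists_min_image (𝓑 ×ˢ 𝓑)
    (fun p => (p.1 ∩ p.2).card) (Set.toFinite _) (C.ne.prod C.ne)
  simp only at hB hB' hm
  have hε : 2 * (B ∩ B').card < B.card := by
    obtain ⟨B1, h1, B2, h2, h3⟩ := C.ex_small
    have := hm (B1, B2) ⟨h1, h2⟩
    rw [C.card_eq hB h1]; simp only at this; omega
  have hcc := C.card_eq hB hB'
  -- a block close to `B'`
  have hD : (B' \ B).Nonempty := by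
    rw [← card_pos, card_sdiff]; omega
  have hk : ∃ k : G, k • B' ≠ B' ∧ (k • B' \ B').card ≤ (B ∩ B').card := by
    have := C.N B hB B' hB' _ hD sdiff_subset sdiff_disjoint
    unfold Inv at this
    push Not at this
    obtain ⟨k, hk, d, hd, hkd⟩ := this
    obtain ⟨d1, d2⟩ := mem_sdiff.1 hd
    refine ⟨k, fun e => hkd (mem_sdiff.2 ⟨e ▸ Finset.smul_mem_smul_finset d1,
      fun h => d2 (hk.mem_iff.1 h)⟩), ?_⟩
    have : k • B' \ B' ⊆ univ \ (B ∪ B') := by
      intro x hx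
      obtain ⟨x1, x2⟩ := mem_sdiff.1 hx
      obtain ⟨y, hy, rfl⟩ := Finset.mem_smul_finset.1 x1
      simp only [mem_sdiff, mem_univ, mem_union, true_and, not_or]
      refine ⟨fun h => x2 ?_, x2⟩
      rw [hk y (hk.mem_iff.1 h)]; exact hy
    refine (card_le_card this).trans ?_
    have := card_union_add_card_inter B B'
    rw [card_sdiff_of_subset (subset_univ _), card_univ, C.n_eq hB]
    omega
  obtain ⟨k, hk1, hk2⟩ := hk
  obtain ⟨⟨B1, B2⟩, ⟨⟨h1, h2⟩, hne⟩, ha⟩ := Set.exists_min_image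
    {p : Finset Ω × Finset Ω | p ∈ 𝓑 ×ˢ 𝓑 ∧ p.1 ≠ p.2}
    (fun p => (p.1 \ p.2).card) (Set.toFinite _) ⟨(k • B', B'), ⟨C.sm _ hB' k, hB'⟩, hk1⟩
  simp only at h1 h2 hne ha
  have haε : (B1 \ B2).card ≤ (B ∩ B').card :=
    (ha (k • B', B') ⟨⟨C.sm _ hB' k, hB'⟩, hk1⟩).trans hk2
  have hc1 := C.card_eq hB h1
  have hat : t < (B1 \ B2).card := by
    by_contra hc
    obtain ⟨A', hA', e⟩ := exists_subset_card_eq haε
    obtain ⟨g, e1, e2⟩ := C.flag h e.symm (by omega) h1 hB' sdiff_subset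
      (hA'.trans inter_subset_right)
    have hpos : 0 < A'.card := by
      rw [e, card_pos, sdiff_nonempty]
      exact fun hs => hne (eq_of_subset_of_card_le hs (C.card_eq h2 h1).le)
    have hcard : ∀ D ∈ 𝓑, B' \ D = A' → (D \ B').card = A'.card := fun D hD e => by
      rw [← e, card_sdiff, card_sdiff, inter_comm, C.card_eq hD hB']
    refine C.N B' hB' B hB (univ.filter fun x => x ∉ B' ∧ ∃ D ∈ 𝓑, B' \ D = A' ∧ x ∈ D) ?_ ?_ ?_ ?_
    · have h3 : B' \ g • B2 = A' := by rw [← e1, ← e2, Finset.smul_finset_sdiff]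
      obtain ⟨x, hx⟩ := card_pos.1 ((hcard _ (C.sm _ h2 g) h3).symm ▸ hpos)
      exact ⟨x, by
        simp only [mem_filter, mem_univ, true_and]
        exact ⟨(mem_sdiff.1 hx).2, _, C.sm _ h2 g, h3, (mem_sdiff.1 hx).1⟩⟩
    · intro x hx
      simp only [mem_filter, mem_univ, true_and] at hx
      obtain ⟨x1, D, hD, e3, x2⟩ := hx
      by_contra hxB
      have k1 := hm (B, D) ⟨hB, hD⟩
      have k2 : B ∩ D ⊆ ((B ∩ B') \ A') ∪ (D \ B').erase x := by
        intro y hy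
        obtain ⟨y1, y2⟩ := mem_inter.1 hy
        by_cases hy' : y ∈ B'
        · refine mem_union_left _ (mem_sdiff.2 ⟨mem_inter.2 ⟨y1, hy'⟩, fun h => ?_⟩)
          rw [← e3] at h; exact (mem_sdiff.1 h).2 y2
        · exact mem_union_right _ (mem_erase.2 ⟨by rintro rfl; exact hxB y1, mem_sdiff.2 ⟨y2, hy'⟩⟩)
      have k3 := (card_le_card k2).trans (card_union_le _ _)
      rw [card_sdiff_of_subset hA', card_erase_of_mem (mem_sdiff.2 ⟨x2, x1⟩), hcard D hD e3] at k3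
      have := card_le_card hA'
      simp only at k1
      omega
    · rw [disjoint_left]
      intro x hx
      exact (mem_filter.1 hx).2.1
    · intro u hu x hx
      simp only [mem_filter, mem_univ, true_and] at hx ⊢
      obtain ⟨x1, D, hD, e3, x2⟩ := hx
      refine ⟨fun h => x1 (hu.mem_iff.1 h), u • D, C.sm _ hD u, ?_, Finset.smul_mem_smul_finset x2⟩
      have : Fx A' u := hu.mono (hA'.trans inter_subset_right)
      rw [← this.smul_eq, ← e3, Finset.smul_finset_sdiff, hu.smul_eq]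
  have := card_sdiff_add_card_inter B1 B2
  exact ⟨B1, h1, B2, h2, hne, by omega, by omega⟩

end Cf

end Cfsg.Lib.PrF
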