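import Cfsg.Agent.Lib.PrF.B

/-! Fixed points of pronormal subgroups (S3399): the Steiner system case. -/

set_option autoImplicit false
set_option linter.unusedSectionVars false
set_option maxHeartbeats 400000
open Finset
open scoped Pointwise Classical

namespace Cfsg.Lib.PrF

variable {G Ω : Type} [Group G] [Fintype Ω] [DecidableEq Ω] [MulAction G Ω] {𝓑 : Set (Finset Ω)}

theorem cl_ins {L T : Finset Ω} {x : Ω} (h : L ⊆ cl 𝓑 T) (hx : x ∈ cl 𝓑 T) :
    cl 𝓑 (insert x L) ⊆ cl 𝓑 T := cl_le (insert_subset hx h)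

namespace Cf
variable (C : Cf G 𝓑)
include C

theorem P_le' {B S P T : Finset Ω} (hB : B ∈ 𝓑) (h : S ⊆ B) (hS : S.Nonempty)
    (hc : cl 𝓑 S = S) (hP : ∀ x ∈ P, x ∉ S) (hPB : P ⊆ B)
    (hT : ∀ x ∈ P, cl 𝓑 (insert x S) = T) : P.card ≤ S.card := by
  have := C.P_le hB h hS ((Inv.univ S).sdiff (Inv.self S))
    (fun x hx => by rw [hc]; exact (mem_sdiff.1 hx).2)
    (fun x hx => mem_sdiff.2 ⟨mem_univ _, hP x hx⟩) hPB hT
  rw [C.lv_compl hB h] at this
  exact_mod_cast this

/-- equality in the block bound: the closure consists of `S` and `P`. -/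
theorem P_eq {B S P T : Finset Ω} (hB : B ∈ 𝓑) (h : S ⊆ B) (hS : S.Nonempty)
    (hc : cl 𝓑 S = S) (hP : ∀ x ∈ P, x ∉ S) (hPB : P ⊆ B)
    (hT : ∀ x ∈ P, cl 𝓑 (insert x S) = T) (he : P.card = S.card) : T.card = 2 * S.card := by
  obtain ⟨p, hp⟩ : P.Nonempty := card_pos.1 (he ▸ card_pos.2 hS)
  have hTB : T ⊆ B := hT p hp ▸ cl_sub hB (insert_subset (hPB hp) h)
  have hST : S ⊆ T := hT p hp ▸ (subset_insert _ _).trans (sub_cl _ _)
  have hTT : cl 𝓑 T = T := by rw [← hT p hp, cl_cl]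
  have : T = S ∪ P := by
    refine Subset.antisymm (fun w hw => ?_) (union_subset hST fun x hx =>
      hT x hx ▸ sub_cl _ _ (mem_insert_self _ _))
    by_contra hw'
    rw [mem_union, not_or] at hw'
    rcases (orb G S w ∩ P).eq_empty_or_nonempty with e | ⟨y, hy⟩
    · have hX := (Inv.univ (G := G) S).sdiff (Inv.self S)
      have hO : orb G S w ⊆ univ \ S := orb_sub hX (mem_sdiff.2 ⟨mem_univ _, hw'.1⟩)
      have := C.P_le hB h hS (hX.sdiff (orb_inv S w))
        (fun x hx => by rw [hc]; exact (mem_sdiff.1 (mem_sdiff.1 hx).1).2)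
        (fun x hx => mem_sdiff.2 ⟨mem_sdiff.2 ⟨mem_univ _, hP x hx⟩, fun h =>
          notMem_empty x (e ▸ mem_inter.2 ⟨h, hx⟩)⟩) hPB hT
      rw [lv_sdiff _ hO, C.lv_compl hB h] at this
      have := C.lv_orb hB h hS (w := w) (by rw [hc]; exact hw'.1)
      omega
    · obtain ⟨g, hg, e⟩ := mem_orb.1 (mem_inter.1 hy).1
      have h1 : cl 𝓑 (insert w S) = T := by
        refine eq_of_subset_of_card_le (hTT ▸ cl_ins (hTT.symm ▸ hST) (hTT.symm ▸ hw)) ?_
        rw [← hT y (mem_inter.1 hy).2, ← e, ← card_smul_finset g (cl 𝓑 (insert w S)),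
          ← cl_smul C.sm, Finset.smul_finset_insert, hg.smul_eq]
      have := C.P_le' hB h hS hc (P := insert w P) (T := T) (by simpa [hw'.1] using hP)
        (insert_subset (hTB hw) hPB) (by simpa [h1] using hT)
      rw [card_insert_of_notMem hw'.2] at this
      omega
  rw [this, card_union_of_disjoint (disjoint_right.2 hP)]; omega

theorem St {t k : ℕ} (ht : 2 ≤ t) (hk : t + 1 ≤ k) {B B' : Finset Ω} (hB : B ∈ 𝓑) (hB' : B' ∈ 𝓑)
    (hne : B ≠ B') (he : B.card < 2 * (B ∩ B').card) (hf : 2 * t + 1 ≤ B.card)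
    (h1 : ∀ S ⊆ B, S.card = t → (cl 𝓑 S).card = k)
    (h0 : ∀ S ⊆ B, S.card + 1 = t → cl 𝓑 S = S) : False := by
  have hL : ∀ S ⊆ B, S.card = t → ∀ S' ⊆ cl 𝓑 S, S'.card = t → cl 𝓑 S' = cl 𝓑 S :=
    fun S hS hc S' hS' hc' => eq_of_subset_of_card_le (cl_le hS')
      (by rw [h1 S hS hc, h1 S' (hS'.trans (cl_sub hB hS)) hc'])
  -- lines through a `(t-1)`-set
  have hL' : ∀ W ⊆ B, W.card + 1 = t → ∀ x ∈ B, x ∉ W → ∀ y ∈ cl 𝓑 (insert x W), y ∉ W →
      cl 𝓑 (insert y W) = cl 𝓑 (insert x W) := fun W hW hc x hx hxW y hy hyW =>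
    hL _ (insert_subset hx hW) (by rw [card_insert_of_notMem hxW, hc]) _
      (insert_subset hy ((subset_insert _ _).trans (sub_cl _ _)))
      (by rw [card_insert_of_notMem hyW, hc])
  have hk2 : k + 2 ≤ 2 * t := by
    obtain ⟨W, hW, hc⟩ := exists_subset_card_eq (s := B) (n := t - 1) (by omega)
    obtain ⟨x, hx, hxW⟩ := exists_mem_notMem_of_card_lt_card (s := W) (t := B) (by omega)
    have hs : W ⊆ cl 𝓑 (insert x W) := (subset_insert _ _).trans (sub_cl _ _)
    have := C.P_le' hB hW (card_pos.1 (by omega)) (h0 W hW (by omega))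
      (P := cl 𝓑 (insert x W) \ W) (T := cl 𝓑 (insert x W)) (fun y hy => (mem_sdiff.1 hy).2)
      (sdiff_subset.trans (cl_sub hB (insert_subset hx hW)))
      (fun y hy => hL' W hW (by omega) x hx hxW y (mem_sdiff.1 hy).1 (mem_sdiff.1 hy).2)
    rw [card_sdiff_of_subset hs, h1 _ (insert_subset hx hW)
      (by rw [card_insert_of_notMem hxW]; omega)] at this
    omega
  -- a line and a further point
  have key : ∀ S ⊆ B, S.card = t → ∀ d ∈ B, d ∉ cl 𝓑 S →
      k = t + 1 ∧ (cl 𝓑 (insert d (cl 𝓑 S))).card = 2 * (t + 1) := by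
    intro S hS hc d hd hdL
    have hLB := cl_sub hB hS
    have hdS : ∀ s, d ∉ S.erase s := fun s h => hdL (sub_cl _ _ (mem_of_mem_erase h))
    have hce : ∀ s ∈ S, (S.erase s).card + 1 = t := fun s hs => by rw [card_erase_add_one hs, hc]
    have hsB : ∀ s, S.erase s ⊆ B := fun s => (erase_subset _ _).trans hS
    obtain ⟨M, hM⟩ : ∃ M : Ω → Finset Ω,
        ∀ s, M s = cl 𝓑 (insert d (S.erase s)) \ insert d (S.erase s) := ⟨_, fun _ => rfl⟩
    have m0 : ∀ s, ∀ x ∈ M s, x ∈ cl 𝓑 (insert d (S.erase s)) := fun s x hx =>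
      (mem_sdiff.1 (hM s ▸ hx)).1
    have m1 : ∀ s ∈ S, (M s).card = k - t := fun s hs => by
      have : (insert d (S.erase s)).card = t := by rw [card_insert_of_notMem (hdS s), hce s hs]
      rw [hM, card_sdiff_of_subset (sub_cl _ _), h1 _ (insert_subset hd (hsB s)) this, this]
    have m2 : ∀ s ∈ S, ∀ x ∈ M s, x ∉ S.erase s ∧ x ≠ d ∧
        cl 𝓑 (insert x (S.erase s)) = cl 𝓑 (insert d (S.erase s)) := fun s hs x hx => by
      obtain ⟨x1, x2⟩ := mem_sdiff.1 (hM s ▸ hx)
      rw [mem_insert, not_or] at x2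
      exact ⟨x2.2, x2.1, hL' _ (hsB s) (hce s hs) d hd (hdS s) x x1 x2.2⟩
    have m3 : ∀ s ∈ S, ∀ x ∈ M s, x ∉ cl 𝓑 S := fun s hs x hx hxL => by
      obtain ⟨-, -, e⟩ := m2 s hs x hx
      exact hdL (cl_ins ((erase_subset _ _).trans (sub_cl _ _)) hxL
        (by rw [e]; exact sub_cl _ _ (mem_insert_self _ _)))
    have m4 : ∀ s ∈ S, ∀ s' ∈ S, s ≠ s' → Disjoint (M s) (M s') := by
      intro s hs s' hs' hss
      refine disjoint_left.2 fun x hx hx' => ?_
      have hs'' : s' ∈ S.erase s := mem_erase.2 ⟨Ne.symm hss, hs'⟩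
      obtain ⟨x1, x2, -⟩ := m2 s hs x hx
      have hc' : (insert x (insert d ((S.erase s).erase s'))).card = t := by
        rw [card_insert_of_notMem, card_insert_of_notMem, card_erase_add_one hs'', hce s hs]
        · exact fun h => hdS s (mem_of_mem_erase h)
        · rw [mem_insert, not_or]; exact ⟨x2, fun h => x1 (mem_of_mem_erase h)⟩
      have c1 : ∀ r ∈ S, (insert d (S.erase r)).card = t := fun r hr => by
        rw [card_insert_of_notMem (hdS r), hce r hr]
      have b1 : insert x (insert d ((S.erase s).erase s')) ⊆ cl 𝓑 (insert d (S.erase s)) :=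
        insert_subset (m0 s x hx) ((insert_subset_insert d (erase_subset s' (S.erase s))).trans
          (sub_cl _ _))
      have b2 : insert x (insert d ((S.erase s).erase s')) ⊆ cl 𝓑 (insert d (S.erase s')) :=
        insert_subset (m0 s' x hx') ((insert_subset_insert d
          (erase_subset_erase s' (erase_subset s S))).trans (sub_cl _ _))
      have a1 := hL _ (insert_subset hd (hsB s)) (c1 s hs) _ b1 hc'
      have a2 := hL _ (insert_subset hd (hsB s')) (c1 s' hs') _ b2 hc'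
      have a3 : S ⊆ cl 𝓑 (insert d (S.erase s)) := by
        intro y hy
        by_cases hys : y = s
        · rw [← a1, a2]
          exact sub_cl _ _ (mem_insert_of_mem (mem_erase.2 ⟨by rw [hys]; exact hss, hy⟩))
        · exact sub_cl _ _ (mem_insert_of_mem (mem_erase.2 ⟨hys, hy⟩))
      have a4 := hL _ (insert_subset hd (hsB s)) (c1 s hs) S a3 hc
      exact hdL (by rw [a4]; exact sub_cl _ _ (mem_insert_self _ _))
    have p1 : (insert d (S.biUnion M)).card = t * (k - t) + 1 := by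
      rw [card_insert_of_notMem, card_biUnion fun s hs s' hs' => m4 s hs s' hs', sum_congr rfl m1, sum_const, hc, smul_eq_mul]
      rw [mem_biUnion]
      rintro ⟨s, hs, h⟩
      exact (m2 s hs d h).2.1 rfl
    have p2 : ∀ x ∈ insert d (S.biUnion M), x ∉ cl 𝓑 S := by
      intro x hx
      rcases mem_insert.1 hx with rfl | hx
      · exact hdL
      · obtain ⟨s, hs, h⟩ := mem_biUnion.1 hx; exact m3 s hs x h
    have p3 : insert d (S.biUnion M) ⊆ B := insert_subset hd (biUnion_subset.2 fun s _ x hx =>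
      cl_sub hB (insert_subset hd (hsB s)) (m0 s x hx))
    have p4 : ∀ x ∈ insert d (S.biUnion M),
        cl 𝓑 (insert x (cl 𝓑 S)) = cl 𝓑 (insert d (cl 𝓑 S)) := by
      intro x hx
      rcases mem_insert.1 hx with rfl | hx
      · rfl
      obtain ⟨s, hs, h⟩ := mem_biUnion.1 hx
      have hm : ∀ y, cl 𝓑 (insert y (S.erase s)) ⊆ cl 𝓑 (insert y (cl 𝓑 S)) := fun y =>
        cl_mono (insert_subset_insert _ ((erase_subset _ _).trans (sub_cl _ _)))
      refine Subset.antisymm (cl_ins ((subset_insert _ _).trans (sub_cl _ _))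
        (hm d (m0 s x h))) (cl_ins ((subset_insert _ _).trans (sub_cl _ _)) (hm x ?_))
      rw [(m2 s hs x h).2.2]; exact sub_cl _ _ (mem_insert_self _ _)
    have hn : (cl 𝓑 S).Nonempty := card_pos.1 (by rw [h1 S hS hc]; omega)
    have p5 := C.P_le' hB hLB hn (cl_cl _ _) p2 p3 p4
    rw [p1, h1 S hS hc] at p5
    have hkt : k = t + 1 := by
      obtain ⟨m, rfl⟩ : ∃ m, k = t + 1 + m := ⟨k - (t + 1), by omega⟩
      rw [show t + 1 + m - t = m + 1 by omega] at p5
      have : m = 0 := by nlinarith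
      omega
    refine ⟨hkt, ?_⟩
    rw [C.P_eq hB hLB hn (cl_cl _ _) p2 p3 p4 (by rw [p1, h1 S hS hc, hkt]; simp), h1 S hS hc, hkt]
  obtain ⟨a, ha, ha'⟩ : ∃ a ∈ B, a ∉ B' := by
    by_contra hc
    push Not at hc
    exact hne (eq_of_subset_of_card_le hc (C.card_eq hB' hB).le)
  have hEB : B ∩ B' ⊆ B := inter_subset_left
  have hcE : ∀ S ⊆ B ∩ B', cl 𝓑 S ⊆ B ∩ B' := fun S hS =>
    subset_inter (cl_sub hB (hS.trans hEB)) (cl_sub hB' (hS.trans inter_subset_right))
  obtain ⟨S, hS, hc⟩ := exists_subset_card_eq (s := B ∩ B') (n := t) (by omega)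
  have haL : a ∉ cl 𝓑 S := fun h => ha' (mem_inter.1 (hcE S hS h)).2
  obtain ⟨rfl, hT0⟩ := key S (hS.trans hEB) hc a ha haL
  have hf2 : 2 * (t + 1) ≤ B.card :=
    hT0 ▸ card_le_card (cl_sub hB (insert_subset ha (cl_sub hB (hS.trans hEB))))
  rcases (by omega : t = 3 ∨ 4 ≤ t) with rfl | ht4
  · obtain ⟨b, hb⟩ : (B ∩ B').Nonempty := card_pos.1 (by omega)
    have hab : a ≠ b := by rintro rfl; exact ha' (mem_inter.1 hb).2
    have hW : ({a, b} : Finset Ω) ⊆ B := insert_subset ha (singleton_subset_iff.2 (hEB hb))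
    have hWc : ({a, b} : Finset Ω).card + 1 = 3 := by rw [card_pair hab]
    have hx : ∀ x ∈ (B ∩ B').erase b, x ∉ ({a, b} : Finset Ω) := fun x hx h => by
      rcases mem_insert.1 h with rfl | h
      · exact ha' (mem_inter.1 (mem_of_mem_erase hx)).2
      · exact (mem_erase.1 hx).1 (mem_singleton.1 h)
    have hz : ∀ x ∈ (B ∩ B').erase b, ∃ z ∈ cl 𝓑 (insert x {a, b}),
        z ∉ insert x ({a, b} : Finset Ω) :=
      fun x h => by
        have : (insert x {a, b} : Finset Ω).card = 3 := by rw [card_insert_of_notMem (hx x h), hWc]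
        exact exists_mem_notMem_of_card_lt_card (s := insert x {a, b}) (by
          rw [h1 _ (insert_subset (hEB (mem_of_mem_erase h)) hW) this, this]; omega)
    choose! z hz1 hz2 using hz
    have := card_le_card_of_injOn (s := (B ∩ B').erase b) (t := (B \ B').erase a) z ?_ ?_
    · rw [card_erase_of_mem hb, card_erase_of_mem (mem_sdiff.2 ⟨ha, ha'⟩)] at this
      have := card_sdiff_add_card_inter B B'
      omega
    · intro x h
      have h' : x ∈ (B ∩ B').erase b := h
      have hxE := mem_of_mem_erase h'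
      have hsub := insert_subset (hEB hxE) hW
      have n1 := hz2 x h'
      simp only [mem_insert, mem_singleton, not_or] at n1
      refine mem_coe.2 (mem_erase.2 ⟨n1.2.1, mem_sdiff.2 ⟨cl_sub hB hsub (hz1 x h'), fun hz' => ?_⟩⟩)
      have := hL _ hsub (by rw [card_insert_of_notMem (hx x h'), hWc]) {z x, x, b}
        (insert_subset (hz1 x h') (fun y hy => sub_cl _ _ (by
          simp only [mem_insert, mem_singleton] at hy ⊢; tauto)))
        (card_eq_three.2 ⟨_, _, _, n1.1, n1.2.2, (mem_erase.1 h').1, rfl⟩)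
      refine ha' (cl_sub hB' (insert_subset hz' (insert_subset (mem_inter.1 hxE).2
        (singleton_subset_iff.2 (mem_inter.1 hb).2))) ?_)
      rw [this]; exact sub_cl _ _ (by simp)
    · intro x h y h' e
      have h : x ∈ (B ∩ B').erase b := h
      have h' : y ∈ (B ∩ B').erase b := h'
      by_contra hxy
      have e1 := hL' _ hW hWc x (hEB (mem_of_mem_erase h)) (hx x h) _ (hz1 x h)
        (fun k => hz2 x h (mem_insert_of_mem k))
      have e2 := hL' _ hW hWc y (hEB (mem_of_mem_erase h')) (hx y h') _ (hz1 y h')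
        (fun k => hz2 y h' (mem_insert_of_mem k))
      have hsub : insert (z x) (insert y (insert x {a, b})) ⊆ cl 𝓑 (insert x {a, b}) :=
        insert_subset (hz1 x h) (insert_subset
          (by rw [← e1, e, e2]; exact sub_cl _ _ (mem_insert_self _ _)) (sub_cl _ _))
      have c3 : (insert x {a, b} : Finset Ω).card = 3 := by rw [card_insert_of_notMem (hx x h), hWc]
      have := card_le_card hsub
      rw [h1 _ (insert_subset (hEB (mem_of_mem_erase h)) hW) c3, card_insert_of_notMem,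
        card_insert_of_notMem, c3] at this
      · omega
      · rw [mem_insert, not_or]; exact ⟨fun k => hxy k.symm, hx y h'⟩
      · rw [mem_insert, not_or]
        exact ⟨fun k => hz2 y h' (e ▸ k ▸ mem_insert_self _ _), hz2 x h⟩
  · obtain ⟨w0, hw0, hw0'⟩ := exists_mem_notMem_of_card_lt_card (s := cl 𝓑 S) (t := B ∩ B')
      (by rw [h1 S (hS.trans hEB) hc]; omega)
    obtain ⟨T, hTc, hTE, hTT⟩ : ∃ T : Finset Ω, T.card = 2 * (t + 1) ∧ T ⊆ B ∩ B' ∧ cl 𝓑 T = T :=
      ⟨_, (key S (hS.trans hEB) hc w0 (hEB hw0) hw0').2, hcE _ (insert_subset hw0 (hcE S hS)),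
        cl_cl _ _⟩
    have hTB := hTE.trans hEB
    have hTi : ∀ L ⊆ T, ∀ x ∈ T, cl 𝓑 (insert x L) ⊆ T := fun L h x hx => by
      rw [← hTT]; exact cl_mono (insert_subset hx h)
    have haT : a ∉ T := fun h => ha' (mem_inter.1 (hTE h)).2
    obtain ⟨W, hW, hWc⟩ := exists_subset_card_eq (s := T) (n := t - 1) (by omega)
    have hWB := hW.trans hTB
    have hi : ∀ x, x ∉ W → (insert x W).card = t := fun x hx => by
      rw [card_insert_of_notMem hx]; omega
    obtain ⟨L, hLd⟩ : ∃ L : Ω → Finset Ω, ∀ x, L x = cl 𝓑 (insert x W) := ⟨_, fun _ => rfl⟩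
    obtain ⟨P, hP⟩ : ∃ P : Ω → Finset Ω, ∀ x, P x = cl 𝓑 (insert a (L x)) \ L x :=
      ⟨_, fun _ => rfl⟩
    have hP1 : ∀ x, ∀ z ∈ P x, z ∈ cl 𝓑 (insert a (L x)) := fun x z hz =>
      (mem_sdiff.1 (hP x ▸ hz)).1
    have hP2 : ∀ x, ∀ z ∈ P x, z ∉ L x := fun x z hz => (mem_sdiff.1 (hP x ▸ hz)).2
    have hWL : ∀ x, W ⊆ L x := fun x => by
      rw [hLd]; exact (subset_insert _ _).trans (sub_cl _ _)
    have hxL : ∀ x, x ∈ L x := fun x => by rw [hLd]; exact sub_cl _ _ (mem_insert_self _ _)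
    have l1 : ∀ x ∈ B, x ∉ W → (L x).card = t + 1 := fun x hx hxW => by
      rw [hLd]; exact h1 _ (insert_subset hx hWB) (hi x hxW)
    have l2 : ∀ x ∈ T, L x ⊆ T := fun x hx => by rw [hLd]; exact hTi _ hW x hx
    have l3 : ∀ x ∈ B, x ∉ W → ∀ d ∈ B, d ∉ L x → (cl 𝓑 (insert d (L x))).card = 2 * (t + 1) :=
      fun x hx hxW d hd hdL => by
        rw [hLd] at hdL ⊢; exact (key _ (insert_subset hx hWB) (hi x hxW) d hd hdL).2
    have haL : ∀ x ∈ T, a ∉ L x := fun x hx h => haT (l2 x hx h)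
    have l4 : ∀ x ∈ T, cl 𝓑 (insert a (L x)) ⊆ B := fun x hx =>
      cl_sub hB (insert_subset ha ((l2 x hx).trans hTB))
    have l5 : ∀ x ∈ T, x ∉ W → ∀ z ∈ P x, cl 𝓑 (insert z (L x)) = cl 𝓑 (insert a (L x)) :=
      fun x hx hxW z hz => eq_of_subset_of_card_le
        (cl_ins ((subset_insert _ _).trans (sub_cl _ _)) (hP1 x z hz))
        (by rw [l3 x (hTB hx) hxW a ha (haL x hx),
          l3 x (hTB hx) hxW z (l4 x hx (hP1 x z hz)) (hP2 x z hz)])
    have l6 : ∀ x ∈ T, x ∉ W → ∀ z ∈ P x, z ∉ T := fun x hx hxW z hz hzT =>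
      haT (hTi _ (l2 x hx) z hzT
        (by rw [l5 x hx hxW z hz]; exact sub_cl _ _ (mem_insert_self _ _)))
    have l7 : ∀ x ∈ T, x ∉ W → (P x).card = t + 1 := fun x hx hxW => by
      rw [hP, card_sdiff_of_subset ((subset_insert _ _).trans (sub_cl _ _)),
        l3 x (hTB hx) hxW a ha (haL x hx), l1 x (hTB hx) hxW]; omega
    have haW : a ∉ W := fun h => haT (hW h)
    have l8 : ∀ x ∈ T, x ∉ W → ∀ y ∈ T, y ∉ L x → P x ∩ P y ⊆ L a \ W := by
      intro x hx hxW y hy hyL z hz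
      obtain ⟨z1, z2⟩ := mem_inter.1 hz
      have hyW : y ∉ W := fun h => hyL (hWL x h)
      refine mem_sdiff.2 ⟨?_, fun h => hP2 x z z1 (hWL x h)⟩
      by_contra hza
      have hc := l3 a ha haW z (l4 x hx (hP1 x z z1)) hza
      have q : ∀ u ∈ T, u ∉ W → z ∈ P u → cl 𝓑 (insert z (L a)) = cl 𝓑 (insert a (L u)) :=
        fun u hu huW hzu => eq_of_subset_of_card_le
          (cl_ins (by rw [hLd a]; exact cl_mono (insert_subset_insert _ (hWL u))) (hP1 u z hzu))
          (by rw [hc, l3 u (hTB hu) huW a ha (haL u hu)])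
      refine l6 x hx hxW y ?_ hy
      rw [hP]
      refine mem_sdiff.2 ⟨?_, hyL⟩
      rw [← q x hx hxW z1, q y hy hyW z2]
      exact sub_cl _ _ (mem_insert_of_mem (hxL y))
    have l9 : (L a \ W).card = 2 := by
      rw [card_sdiff_of_subset (hWL a), l1 a ha haW]; omega
    obtain ⟨x, hx, hxW⟩ := exists_mem_notMem_of_card_lt_card (s := W) (t := T) (by omega)
    obtain ⟨y, hy, hyL⟩ := exists_mem_notMem_of_card_lt_card (s := L x) (t := T)
      (by rw [l1 x (hTB hx) hxW]; omega)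
    have hyW : y ∉ W := fun h => hyL (hWL x h)
    obtain ⟨u, hu, huL⟩ := exists_mem_notMem_of_card_lt_card (s := L x ∪ L y) (t := T) (by
      have := card_union_add_card_inter (L x) (L y)
      have := card_le_card (subset_inter (hWL x) (hWL y))
      rw [l1 x (hTB hx) hxW, l1 y (hTB hy) hyW] at *
      omega)
    rw [mem_union, not_or] at huL
    have huW : u ∉ W := fun h => huL.1 (hWL x h)
    have f1 : ∀ v ∈ T, v ∉ W → ∀ z ∈ P v, z ∉ T ∧ z ∈ B ∧
        cl 𝓑 (insert z T) = cl 𝓑 (insert a T) := fun v hv hvW z hz => by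
      have hm : ∀ y, cl 𝓑 (insert y (L v)) ⊆ cl 𝓑 (insert y T) := fun y =>
        cl_mono (insert_subset_insert _ (l2 v hv))
      refine ⟨l6 v hv hvW z hz, l4 v hv (hP1 v z hz), Subset.antisymm
        (cl_ins ((subset_insert _ _).trans (sub_cl _ _)) (hm a (hP1 v z hz)))
        (cl_ins ((subset_insert _ _).trans (sub_cl _ _)) (hm z ?_))⟩
      rw [l5 v hv hvW z hz]; exact sub_cl _ _ (mem_insert_self _ _)
    have f2 : ∀ z ∈ P x ∪ P y ∪ P u, z ∉ T ∧ z ∈ B ∧ cl 𝓑 (insert z T) = cl 𝓑 (insert a T) := by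
      intro z hz
      rcases mem_union.1 hz with hz | hz
      · rcases mem_union.1 hz with hz | hz
        exacts [f1 x hx hxW z hz, f1 y hy hyW z hz]
      · exact f1 u hu huW z hz
    have := C.P_le' hB hTB (card_pos.1 (by omega)) hTT (fun z hz => (f2 z hz).1)
      (fun z hz => (f2 z hz).2.1) (fun z hz => (f2 z hz).2.2)
    have c1 := card_union_add_card_inter (P x) (P y)
    have c2 := card_union_add_card_inter (P x ∪ P y) (P u)
    have c3 := card_le_card (l8 x hx hxW y hy hyL)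
    have c4 : (P x ∪ P y) ∩ P u ⊆ L a \ W := by
      rw [union_inter_distrib_right]
      exact union_subset (l8 x hx hxW u hu huL.1) (l8 y hy hyW u hu huL.2)
    have c5 := card_le_card c4
    rw [l7 x hx hxW, l7 y hy hyW] at c1
    rw [l7 u hu huW] at c2
    omega

end Cf

end Cfsg.Lib.PrF
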