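import Cfsg.Agent.Lib.PrF.C
import Mathlib.GroupTheory.SpecificGroups.Alternating.Simple

/-! Fixed points of pronormal subgroups (S3399): colours of `(t+1)`-sets, local homogeneity. -/

set_option autoImplicit false
set_option linter.unusedSectionVars false
open Finset
open scoped Pointwise Classical

namespace Cfsg.Lib.PrF

theorem le_choose {n j : ℕ} (h1 : 1 ≤ j) (h2 : j < n) : n ≤ n.choose j := by
  induction n generalizing j with
  | zero => omega
  | succ n ih =>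
    obtain ⟨j, rfl⟩ : ∃ i, j = i + 1 := ⟨j - 1, by omega⟩
    rw [Nat.choose_succ_succ']
    rcases Nat.eq_zero_or_pos j with rfl | hj
    · simp
    · have := ih hj (by omega)
      have : 0 < n.choose (j + 1) := Nat.choose_pos (by omega)
      omega

theorem alt_le {α : Type} [Fintype α] [DecidableEq α] (H : Subgroup (Equiv.Perm α))
    (h : H.index + 2 ≤ Fintype.card α) : alternatingGroup α ≤ H := by
  by_cases h2 : H.index ≤ 2
  · exact Equiv.Perm.alternatingGroup_le_of_index_le_two h2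
  have h5 : 5 ≤ Nat.card α := by rw [Nat.card_eq_fintype_card]; omega
  refine le_trans (Equiv.Perm.alternatingGroup_le_of_normal h5 (N := H.normalCore) ?_)
    H.normalCore_le
  rw [Subgroup.nontrivial_iff_ne_bot]
  intro hb
  rw [Subgroup.normalCore_eq_ker, MonoidHom.ker_eq_bot_iff] at hb
  have := Nat.card_le_card_of_injective _ hb
  rw [Nat.card_perm, Nat.card_perm, ← Subgroup.index_eq_card, Nat.card_eq_fintype_card] at this
  have := (Nat.factorial_lt (by omega : 0 < H.index)).2 (by omega : H.index < Fintype.card α)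
  omega

variable {G Ω : Type} [Group G] [Fintype Ω] [DecidableEq Ω] [MulAction G Ω] {𝓑 : Set (Finset Ω)}

/-- same colour. -/
def col (G : Type) [Group G] [MulAction G Ω] (Y0 Y : Finset Ω) : Prop := ∃ g : G, g • Y0 = Y

/-- points completing `S` to a set of the colour of `Y0`. -/
noncomputable def cc (G : Type) [Group G] [MulAction G Ω] (Y0 S : Finset Ω) : Finset Ω :=
  univ.filter fun w => w ∉ S ∧ col G Y0 (insert w S)

/-- permutations of `Y` induced by the group. -/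
def Ind (G : Type) [Group G] [MulAction G Ω] (Y : Finset Ω) : Subgroup (Equiv.Perm Y) where
  carrier := {σ | ∃ g : G, ∀ y : Y, g • (y : Ω) = σ y}
  one_mem' := ⟨1, by simp⟩
  mul_mem' := by
    rintro σ τ ⟨g, hg⟩ ⟨h, hh⟩
    exact ⟨g * h, fun y => by rw [mul_smul, hh, hg]; rfl⟩
  inv_mem' := by
    rintro σ ⟨g, hg⟩
    exact ⟨g⁻¹, fun y => by rw [inv_smul_eq_iff, hg]; simp⟩

/-- the stabilizer of `Y` is homogeneous on `Y`. -/
def Hm (G : Type) [Group G] [MulAction G Ω] (Y : Finset Ω) : Prop :=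
  ∀ A ⊆ Y, ∀ A' ⊆ Y, A.card = A'.card → ∃ g : G, g • Y = Y ∧ g • A = A'

theorem col.refl (Y : Finset Ω) : col G Y Y := ⟨1, one_smul _ _⟩
theorem col.symm {Y Y' : Finset Ω} (h : col G Y Y') : col G Y' Y := by
  obtain ⟨g, rfl⟩ := h; exact ⟨g⁻¹, inv_smul_smul _ _⟩
theorem col.trans {Y Y' Y'' : Finset Ω} (h : col G Y Y') (h' : col G Y' Y'') : col G Y Y'' := by
  obtain ⟨g, rfl⟩ := h; obtain ⟨k, rfl⟩ := h'; exact ⟨k * g, mul_smul _ _ _⟩
theorem col_smul {Y0 Y : Finset Ω} (g : G) : col G Y0 (g • Y) ↔ col G Y0 Y :=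
  ⟨fun h => h.trans (col.symm ⟨g, rfl⟩), fun h => h.trans ⟨g, rfl⟩⟩
theorem col.card {Y Y' : Finset Ω} (h : col G Y Y') : Y'.card = Y.card := by
  obtain ⟨g, rfl⟩ := h; exact card_smul_finset _ _

theorem mem_cc {Y0 S : Finset Ω} {w : Ω} : w ∈ cc G Y0 S ↔ w ∉ S ∧ col G Y0 (insert w S) := by
  simp [cc]

theorem cc_smul (Y0 S : Finset Ω) (g : G) : cc G Y0 (g • S) = g • cc G Y0 S := by
  ext x
  rw [← Finset.inv_smul_mem_iff, mem_cc, mem_cc, Finset.inv_smul_mem_iff,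
    ← col_smul (Y := insert (g⁻¹ • x) S) g, Finset.smul_finset_insert, smul_inv_smul]

theorem cc_inv (Y0 S : Finset Ω) : Inv G S (cc G Y0 S) := by
  intro g hg x hx
  have := cc_smul Y0 S g
  rw [hg.smul_eq] at this
  rw [this]; exact Finset.smul_mem_smul_finset hx

theorem hm_of_alt {Y : Finset Ω} (h : alternatingGroup Y ≤ Ind G Y) (h3 : 3 ≤ Y.card) : Hm G Y := by
  have t : Tr (Equiv.Perm Y) Y Y.card := by
    intro S e _ he
    obtain ⟨σ, hσ⟩ := Equiv.Perm.exists_extending_pair (f := fun s : S => (s : Y))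
      (g := fun s : S => e s) Subtype.val_injective
      (fun a b hab => Subtype.ext (he a.2 b.2 hab))
    exact ⟨σ, fun s hs => hσ ⟨s, hs⟩⟩
  intro A hA A' hA' e
  obtain ⟨σ, hσ⟩ := t.hm (A := A.subtype (· ∈ Y)) (A' := A'.subtype (· ∈ Y))
    (by rw [card_subtype, card_subtype, filter_true_of_mem hA, filter_true_of_mem hA', e])
    (by simpa using card_le_univ (A.subtype (· ∈ Y)))
  have : ∃ τ ∈ alternatingGroup Y, τ • A.subtype (· ∈ Y) = A'.subtype (· ∈ Y) := by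
    obtain ⟨a, b, hab, hi⟩ : ∃ a b : Y, a ≠ b ∧ (a.1 ∈ A ↔ b.1 ∈ A) := by
      obtain ⟨a, b, c, h1, h2, h3⟩ := (Fintype.two_lt_card_iff (α := Y)).1 (by rw [Fintype.card_coe]; omega)
      by_cases k1 : a.1 ∈ A ↔ b.1 ∈ A
      · exact ⟨a, b, h1, k1⟩
      by_cases k2 : a.1 ∈ A ↔ c.1 ∈ A
      · exact ⟨a, c, h2, k2⟩
      exact ⟨b, c, h3, by tauto⟩
    rcases Int.units_eq_one_or (Equiv.Perm.sign σ) with h1 | h1
    · exact ⟨σ, h1, hσ⟩
    · refine ⟨σ * Equiv.swap a b, by simp [Equiv.Perm.mem_alternatingGroup, h1, hab], ?_⟩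
      rw [mul_smul, ← hσ]
      congr 1
      ext x
      rw [← Finset.inv_smul_mem_iff, Equiv.swap_inv, Equiv.Perm.smul_def, mem_subtype, mem_subtype,
        Equiv.swap_apply_def]
      split_ifs with k1 k2
      · rw [k1, hi]
      · rw [k2, hi]
      · rfl
  obtain ⟨τ, hτ, e'⟩ := this
  obtain ⟨g, hg⟩ := h hτ
  have key : ∀ X ⊆ Y, ∀ X' ⊆ Y, τ • X.subtype (· ∈ Y) = X'.subtype (· ∈ Y) → X.card = X'.card →
      g • X = X' := fun X hX X' _ e1 e2 => by
    refine eq_of_subset_of_card_le (fun x hx => ?_) (by rw [card_smul_finset, e2])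
    obtain ⟨y, hy, rfl⟩ := Finset.mem_smul_finset.1 hx
    have := hg ⟨y, hX hy⟩
    simp only at this
    rw [this, ← mem_subtype (p := (· ∈ Y)), ← e1]
    exact Finset.smul_mem_smul_finset (a := τ) (mem_subtype.2 hy)
  refine ⟨g, key Y Subset.rfl Y Subset.rfl ?_ rfl, key A hA A' hA' e' e⟩
  ext x
  rw [← Finset.inv_smul_mem_iff]; simp

theorem tr_of_ind {t : ℕ} (h : Tr G Ω t) {Y : Finset Ω} (hI : Ind G Y = ⊤)
    (one : ∀ Y' : Finset Ω, Y'.card = t + 1 → col G Y Y') : Tr G Ω (t + 1) := by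
  intro S e hS he
  rcases Nat.lt_or_ge t S.card with hlt | hle
  swap; · exact h S e hle he
  obtain ⟨g1, h1⟩ := one S (by omega)
  obtain ⟨g2, h2⟩ := one (S.image e) (by rw [card_image_of_injOn he]; omega)
  have m1 : ∀ y : Y, g1 • (y : Ω) ∈ S := fun y => h1 ▸ Finset.smul_mem_smul_finset y.2
  let φ : Y → Y := fun y => ⟨g2⁻¹ • e (g1 • (y : Ω)), by
    rw [Finset.inv_smul_mem_iff, h2]; exact mem_image_of_mem _ (m1 y)⟩
  have hφ : Function.Injective φ := fun a b hab => by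
    have := congrArg Subtype.val hab
    simp only [φ, smul_left_cancel_iff] at this
    exact Subtype.ext (MulAction.injective g1 (he (m1 a) (m1 b) this))
  obtain ⟨g, hg⟩ : Equiv.ofBijective φ (Finite.injective_iff_bijective.1 hφ) ∈ Ind G Y :=
    hI ▸ Subgroup.mem_top _
  refine ⟨g2 * g * g1⁻¹, fun s hs => ?_⟩
  have := hg ⟨g1⁻¹ • s, by rw [Finset.inv_smul_mem_iff, h1]; exact hs⟩
  simp only [Equiv.ofBijective_apply, φ, smul_inv_smul] at this
  rw [mul_smul, mul_smul, this, smul_inv_smul]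

/-- case B: `t`-transitive and `t`-sets are closed. -/
structure CB (G : Type) [Group G] [MulAction G Ω] (𝓑 : Set (Finset Ω)) (t : ℕ) : Prop
    extends Cf G 𝓑 where
  h : Tr G Ω t
  ht : 2 ≤ t
  hc : ∀ B ∈ 𝓑, ∀ S ⊆ B, S.card = t → cl 𝓑 S = S
  hf : ∀ B ∈ 𝓑, 2 * t + 3 ≤ B.card

namespace CB
variable {t : ℕ} (C : CB G 𝓑 t)
include C

theorem cov_t {S : Finset Ω} (hS : S.card ≤ t) : ∃ B ∈ 𝓑, S ⊆ B := by
  obtain ⟨B, hB⟩ := C.ne
  have := C.hf B hB
  obtain ⟨A, hA, e⟩ := exists_subset_card_eq (s := B) (n := S.card) (by omega)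
  obtain ⟨g, rfl⟩ := C.h.hm e (by omega)
  exact ⟨_, C.sm B hB g, Finset.smul_finset_subset_smul_finset hA⟩

theorem clS {S : Finset Ω} (hS : S.card = t) : cl 𝓑 S = S := by
  obtain ⟨B, hB, h⟩ := C.cov_t hS.le
  exact C.hc B hB S h hS

theorem neS {S : Finset Ω} (hS : S.card = t) : S.Nonempty :=
  card_pos.1 (by have := C.ht; omega)

theorem lv_le {B S X Y : Finset Ω} (hB : B ∈ 𝓑) (h : S ⊆ B) (hS : S.card = t) (hX : Inv G S X)
    (hY : Inv G S Y) (hd : ∀ x ∈ X, x ∉ S) (hs : Y ⊆ X) : lv B Y ≤ lv B X :=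
  C.lv_mono hB h (C.neS hS) hX hY (by rw [C.clS hS]; exact hd) hs

theorem lv_le_t {B S X : Finset Ω} (hB : B ∈ 𝓑) (h : S ⊆ B) (hS : S.card = t) (hX : Inv G S X)
    (hd : ∀ x ∈ X, x ∉ S) : lv B X ≤ t := by
  have := C.lv_le hB h hS ((Inv.univ S).sdiff (Inv.self S)) hX (fun x hx => (mem_sdiff.1 hx).2)
    (fun x hx => mem_sdiff.2 ⟨mem_univ _, hd x hx⟩)
  rwa [C.lv_compl hB h, hS] at this

theorem orb_out {S : Finset Ω} {w : Ω} (hw : w ∉ S) : ∀ x ∈ orb G S w, x ∉ S := fun x hx => by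
  obtain ⟨g, hg, rfl⟩ := mem_orb.1 hx
  exact fun h => hw (hg.mem_iff.1 h)

/-- the part of an invariant set outside a block is large. -/
theorem out_big {B S X : Finset Ω} (hB : B ∈ 𝓑) (h : S ⊆ B) (hX : Inv G S X)
    (h1 : 1 ≤ lv B X) : t < (X \ B).card := by
  refine C.mu C.h hB ?_ sdiff_disjoint ((hX.mono h).sdiff (Inv.self B))
  rw [sdiff_nonempty]
  intro hs
  rw [lv_of_sub hs] at h1
  omega

theorem meet {B S : Finset Ω} (hB : B ∈ 𝓑) (h : S ⊆ B) (hS : S.card = t) {w : Ω} (hw : w ∉ S) :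
    ∃ g : G, Fx S g ∧ g • w ∈ B := by
  by_contra hc
  push Not at hc
  have h1 := C.lv_orb hB h (C.neS hS) (w := w) (by rwa [C.clS hS])
  have h2 := C.out_big hB h (orb_inv S w) h1
  have h3 := C.lv_le_t hB h hS (orb_inv S w) (C.orb_out hw)
  have h4 : orb G S w ∩ B = ∅ := eq_empty_of_forall_notMem fun x hx => by
    obtain ⟨g, hg, rfl⟩ := mem_orb.1 (mem_inter.1 hx).1
    exact hc g hg (mem_inter.1 hx).2
  have := card_le_card (sdiff_subset : orb G S w \ B ⊆ _)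
  rw [lv_eq, h4, card_empty] at h3
  omega

theorem cov {Y : Finset Ω} (hY : Y.card = t + 1) : ∃ B ∈ 𝓑, Y ⊆ B := by
  obtain ⟨y, hy⟩ : Y.Nonempty := card_pos.1 (by omega)
  have hS : (Y.erase y).card = t := by rw [card_erase_of_mem hy]; omega
  obtain ⟨B, hB, h⟩ := C.cov_t hS.le
  obtain ⟨g, hg, hy'⟩ := C.meet hB h hS (notMem_erase y Y)
  refine ⟨_, C.sm B hB g⁻¹, ?_⟩
  rw [Finset.subset_smul_finset_iff, inv_inv, ← insert_erase hy, Finset.smul_finset_insert,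
    hg.smul_eq]
  exact insert_subset hy' h

theorem cc_card (Y0 : Finset Ω) {S S' : Finset Ω} (hS : S.card = t) (hS' : S'.card = t) :
    (cc G Y0 S).card = (cc G Y0 S').card := by
  obtain ⟨g, rfl⟩ := C.h.hm (hS.trans hS'.symm) hS.le
  rw [cc_smul, card_smul_finset]

theorem cc_lv (Y0 : Finset Ω) {S S' B B' : Finset Ω} (hS : S.card = t) (hS' : S'.card = t)
    (hB : B ∈ 𝓑) (hB' : B' ∈ 𝓑) (h : S ⊆ B) (h' : S' ⊆ B') :
    lv B (cc G Y0 S) = lv B' (cc G Y0 S') := by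
  obtain ⟨g, rfl, rfl⟩ := C.flag C.h (hS.trans hS'.symm) hS.le hB hB' h h'
  rw [cc_smul, lv_smul]

theorem cc_ne {Y0 S : Finset Ω} (hY : Y0.card = t + 1) (hS : S.card = t) :
    (cc G Y0 S).Nonempty := by
  obtain ⟨y, hy⟩ : Y0.Nonempty := card_pos.1 (by omega)
  rw [← card_pos, C.cc_card Y0 hS (S' := Y0.erase y) (by rw [card_erase_of_mem hy]; omega),
    card_pos]
  exact ⟨y, mem_cc.2 ⟨notMem_erase _ _, by rw [insert_erase hy]; exact col.refl _⟩⟩

theorem cc_pos {Y0 S B : Finset Ω} (hY : Y0.card = t + 1) (hS : S.card = t) (hB : B ∈ 𝓑)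
    (h : S ⊆ B) : 1 ≤ lv B (cc G Y0 S) :=
  C.lv_pos hB h (C.neS hS) (cc_inv Y0 S) (by rw [C.clS hS]; exact fun x hx => (mem_cc.1 hx).1)
    (C.cc_ne hY hS)

/-- two different colours. -/
theorem cc_add {Y0 Y1 S B : Finset Ω} (hn : ¬ col G Y0 Y1) (hS : S.card = t) (hB : B ∈ 𝓑)
    (h : S ⊆ B) : lv B (cc G Y0 S) + lv B (cc G Y1 S) +
      lv B (((univ \ S) \ cc G Y0 S) \ cc G Y1 S) = t := by
  rw [lv_sdiff, lv_sdiff, C.lv_compl hB h, hS]; · ring
  · exact fun x hx => mem_sdiff.2 ⟨mem_univ _, (mem_cc.1 hx).1⟩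
  · exact fun x hx => mem_sdiff.2 ⟨mem_sdiff.2 ⟨mem_univ _, (mem_cc.1 hx).1⟩,
      fun k => hn ((mem_cc.1 k).2.trans (mem_cc.1 hx).2.symm)⟩

theorem rest_inv (Y0 Y1 S : Finset Ω) : Inv G S (((univ \ S) \ cc G Y0 S) \ cc G Y1 S) :=
  (((Inv.univ S).sdiff (Inv.self S)).sdiff (cc_inv _ _)).sdiff (cc_inv _ _)

theorem rest_out {Y0 Y1 S : Finset Ω} (hS : S.card = t) :
    ∀ x ∈ ((univ \ S) \ cc G Y0 S) \ cc G Y1 S, x ∉ cl 𝓑 S := fun x hx => by
  rw [C.clS hS]; exact (mem_sdiff.1 (mem_sdiff.1 (mem_sdiff.1 hx).1).1).2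

theorem idx {Y B : Finset Ω} (hY : Y.card = t + 1) {y0 : Ω} (hy : y0 ∈ Y) (hB : B ∈ 𝓑)
    (h : Y.erase y0 ⊆ B) : ((Ind G Y).index : ℤ) ≤ lv B (cc G Y (Y.erase y0)) := by
  have hS : (Y.erase y0).card = t := by rw [card_erase_of_mem hy]; omega
  -- `g σ` maps `y` to `σ y` on `Y \ y0`
  have : ∀ σ : Equiv.Perm Y, ∃ g : G, ∀ y : Y, y.1 ≠ y0 → g • y.1 = σ y := fun σ => by
    obtain ⟨g, hg⟩ := C.h (Y.erase y0) (fun x => if hx : x ∈ Y then (σ ⟨x, hx⟩ : Ω) else x) hS.le (by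
      intro a ha b hb hab
      have ha := mem_of_mem_erase (mem_coe.1 ha)
      have hb := mem_of_mem_erase (mem_coe.1 hb)
      simp only [ha, hb, dif_pos] at hab
      simpa using σ.injective (Subtype.ext hab))
    exact ⟨g, fun y hy' => by simpa using hg y (mem_erase.2 ⟨hy', y.2⟩)⟩
  choose g hg using this
  obtain ⟨p, hpd⟩ : ∃ p : Equiv.Perm Y → Ω, ∀ σ, p σ = (g σ)⁻¹ • (σ ⟨y0, hy⟩ : Ω) :=
    ⟨_, fun _ => rfl⟩
  have hp : ∀ σ τ, p τ ∈ orb G (Y.erase y0) (p σ) → τ * σ⁻¹ ∈ Ind G Y := by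
    intro σ τ hc
    obtain ⟨k, hk, e⟩ := mem_orb.1 hc
    refine ⟨g τ * k * (g σ)⁻¹, fun y => ?_⟩
    obtain ⟨y, rfl⟩ := σ.surjective y
    rw [mul_smul, mul_smul, Equiv.Perm.mul_apply, Equiv.Perm.inv_def, Equiv.symm_apply_apply]
    by_cases hy' : y.1 = y0
    · rw [show y = ⟨y0, hy⟩ from Subtype.ext hy', ← hpd, e, hpd, smul_inv_smul]
    · rw [← hg σ y hy', inv_smul_smul, hk _ (mem_erase.2 ⟨hy', y.2⟩), hg τ y hy']
  have hm : ∀ σ, p σ ∈ cc G Y (Y.erase y0) := fun σ => by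
    have h1 : p σ ∉ Y.erase y0 := fun k => by
      have := hg σ ⟨_, mem_of_mem_erase k⟩ (mem_erase.1 k).1
      simp only [hpd, smul_inv_smul] at this
      have := congrArg Subtype.val (σ.injective (Subtype.ext this))
      exact (mem_erase.1 k).1 (by rw [hpd]; exact this.symm)
    refine mem_cc.2 ⟨h1, col.symm ⟨g σ, eq_of_subset_of_card_le (fun x hx => ?_) ?_⟩⟩
    · obtain ⟨z, hz, rfl⟩ := Finset.mem_smul_finset.1 hx
      rcases mem_insert.1 hz with rfl | hz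
      · rw [hpd, smul_inv_smul]; exact (σ _).2
      · rw [hg σ ⟨z, mem_of_mem_erase hz⟩ (mem_erase.1 hz).1]; exact (σ _).2
    · rw [card_smul_finset, card_insert_of_notMem h1, hS, hY]
  have hq : ∀ c c' : Equiv.Perm Y ⧸ Ind G Y,
      p c'.out⁻¹ ∈ orb G (Y.erase y0) (p c.out⁻¹) → c = c' := fun c c' k => by
    have := hp _ _ k
    rw [inv_inv] at this
    rw [← c.out_eq, ← c'.out_eq]
    exact (QuotientGroup.eq.2 this).symm
  have := C.le_lv hB h (C.neS hS) (cc_inv Y _) (by rw [C.clS hS]; exact fun x hx => (mem_cc.1 hx).1)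
    (R := univ.image fun c : Equiv.Perm Y ⧸ Ind G Y => p c.out⁻¹)
    (fun x hx => by obtain ⟨c, -, rfl⟩ := mem_image.1 hx; exact hm _)
    (fun x hx y hy k => by
      obtain ⟨c, -, rfl⟩ := mem_image.1 hx
      obtain ⟨c', -, rfl⟩ := mem_image.1 hy
      rw [hq c c' k])
  rwa [card_image_of_injective _ (fun c c' e => hq c c' (by rw [e]; exact self_orb _ _)),
    card_univ, ← Nat.card_eq_fintype_card, ← Subgroup.index_eq_card] at this

/-- with two colours, all stabilizers of `(t+1)`-sets are homogeneous. -/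
theorem hm_two {Y0 Y1 : Finset Ω} (h0 : Y0.card = t + 1) (h1 : Y1.card = t + 1)
    (hn : ¬ col G Y0 Y1) {Y : Finset Ω} (hY : Y.card = t + 1) : Hm G Y := by
  obtain ⟨Y', hY', hn'⟩ : ∃ Y' : Finset Ω, Y'.card = t + 1 ∧ ¬ col G Y Y' := by
    by_cases k : col G Y Y0
    · exact ⟨Y1, h1, fun k' => hn (k.symm.trans k')⟩
    · exact ⟨Y0, h0, k⟩
  obtain ⟨y, hy⟩ : Y.Nonempty := card_pos.1 (by omega)
  have hS : (Y.erase y).card = t := by rw [card_erase_of_mem hy]; omega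
  obtain ⟨B, hB, h⟩ := C.cov_t hS.le
  have a1 := C.idx hY hy hB h
  have a2 := C.cc_add hn' hS hB h
  have a3 := C.cc_pos hY' hS hB h
  have a4 := C.lv_nonneg hB h (C.neS hS) (C.rest_inv Y Y' _) (C.rest_out hS)
  have := C.ht
  exact hm_of_alt (alt_le _ (by rw [Fintype.card_coe]; omega)) (by omega)

end CB

end Cfsg.Lib.PrF
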