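import Cfsg.Agent.Lib.PrF.D

/-! Fixed points of pronormal subgroups (S3399): two colours. -/

set_option autoImplicit false
set_option linter.unusedSectionVars false
set_option maxHeartbeats 400000
open Finset
open scoped Pointwise Classical

namespace Cfsg.Lib.PrF

variable {G Ω : Type} [Group G] [Fintype Ω] [DecidableEq Ω] [MulAction G Ω] {𝓑 : Set (Finset Ω)}

/-- pattern of a point `z` with respect to `Y`. -/
noncomputable def pat (G : Type) [Group G] [MulAction G Ω] (Y0 Y : Finset Ω) (z : Ω) : Finset Ω :=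
  Y.filter fun y => col G Y0 (insert z (Y.erase y))

/-- points outside the closure with a given pattern. -/
noncomputable def dd (G : Type) [Group G] [MulAction G Ω] (𝓑 : Set (Finset Ω)) (Y0 Y A : Finset Ω) :
    Finset Ω := univ.filter fun z => z ∉ cl 𝓑 Y ∧ pat G Y0 Y z = A

theorem mem_pat {Y0 Y : Finset Ω} {z y : Ω} :
    y ∈ pat G Y0 Y z ↔ y ∈ Y ∧ col G Y0 (insert z (Y.erase y)) := by simp [pat]
theorem pat_sub (Y0 Y : Finset Ω) (z : Ω) : pat G Y0 Y z ⊆ Y := filter_subset _ _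
theorem mem_dd {Y0 Y A : Finset Ω} {z : Ω} :
    z ∈ dd G 𝓑 Y0 Y A ↔ z ∉ cl 𝓑 Y ∧ pat G Y0 Y z = A := by simp [dd]

theorem smul_erase (g : G) (Y : Finset Ω) (y : Ω) : g • Y.erase y = (g • Y).erase (g • y) := by
  ext x
  rw [mem_erase, ← Finset.inv_smul_mem_iff, ← Finset.inv_smul_mem_iff, mem_erase, ne_eq,
    inv_smul_eq_iff]

theorem pat_smul (Y0 Y : Finset Ω) (z : Ω) (g : G) :
    pat G Y0 (g • Y) (g • z) = g • pat G Y0 Y z := by
  ext x
  rw [← Finset.inv_smul_mem_iff, mem_pat, mem_pat, Finset.inv_smul_mem_iff,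
    ← col_smul (Y := insert z _) g, Finset.smul_finset_insert, smul_erase, smul_inv_smul]

theorem lv_biUnion {ι : Type} (B : Finset Ω) (I : Finset ι) (f : ι → Finset Ω)
    (h : ∀ i ∈ I, ∀ j ∈ I, i ≠ j → Disjoint (f i) (f j)) :
    lv B (I.biUnion f) = ∑ i ∈ I, lv B (f i) :=
  sum_biUnion fun i hi j hj => h i hi j hj

theorem dd_disj (Y0 Y : Finset Ω) {A A' : Finset Ω} (h : A ≠ A') :
    Disjoint (dd G 𝓑 Y0 Y A) (dd G 𝓑 Y0 Y A') :=
  disjoint_left.2 fun _ hx hx' => h ((mem_dd.1 hx).2.symm.trans (mem_dd.1 hx').2)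

namespace CB
variable {t : ℕ} (C : CB G 𝓑 t)
include C

theorem dd_smul (Y0 Y A : Finset Ω) (g : G) :
    dd G 𝓑 Y0 (g • Y) (g • A) = g • dd G 𝓑 Y0 Y A := by
  ext x
  rw [← Finset.inv_smul_mem_iff, mem_dd, mem_dd, Finset.inv_smul_mem_iff, ← cl_smul C.sm,
    ← smul_left_cancel_iff (g := g) (x := pat G Y0 Y (g⁻¹ • x)), ← pat_smul, smul_inv_smul]

theorem dd_inv (Y0 Y : Finset Ω) {A : Finset Ω} (hA : A ⊆ Y) : Inv G Y (dd G 𝓑 Y0 Y A) := by
  intro g hg x hx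
  have := C.dd_smul Y0 Y A g
  rw [hg.smul_eq, (hg.mono hA).smul_eq] at this
  rw [this]; exact Finset.smul_mem_smul_finset hx

theorem dd_card {Y0 Y A A' : Finset Ω} (H : Hm G Y) (hA : A ⊆ Y) (hA' : A' ⊆ Y)
    (e : A.card = A'.card) : (dd G 𝓑 Y0 Y A).card = (dd G 𝓑 Y0 Y A').card := by
  obtain ⟨g, e1, rfl⟩ := H A hA A' hA' e
  rw [← card_smul_finset g, ← C.dd_smul, e1]

theorem dd_sum {Y0 Y B X : Finset Ω} (hB : B ∈ 𝓑) (h : Y ⊆ B) (hY : Y.Nonempty) (hX : Inv G Y X)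
    (hd : ∀ x ∈ X, x ∉ cl 𝓑 Y) (I : Finset (Finset Ω)) (hI : ∀ A ∈ I, A ⊆ Y)
    (hs : ∀ A ∈ I, dd G 𝓑 Y0 Y A ⊆ X) :
    ∑ A ∈ I, lv B (dd G 𝓑 Y0 Y A) ≤ lv B X ∧
      (∑ A ∈ I, lv B (dd G 𝓑 Y0 Y A) = lv B X → X = I.biUnion (dd G 𝓑 Y0 Y)) := by
  rw [← lv_biUnion B I _ fun _ _ _ _ h => dd_disj Y0 Y h]
  have hi : Inv G Y (I.biUnion (dd G 𝓑 Y0 Y)) := fun g hg x hx => by
    obtain ⟨A, hA, hx⟩ := mem_biUnion.1 hx
    exact mem_biUnion.2 ⟨A, hA, C.dd_inv Y0 Y (hI A hA) g hg x hx⟩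
  have hsub := biUnion_subset.2 hs
  refine ⟨C.lv_mono hB h hY hX hi hd hsub, fun e => Subset.antisymm ?_ hsub⟩
  by_contra hc
  have := C.lv_pos hB h hY (hX.sdiff hi) (fun x hx => hd x (mem_sdiff.1 hx).1) (sdiff_nonempty.2 hc)
  rw [lv_sdiff _ hsub, ← e, sub_self] at this
  omega

theorem dd_pos {Y0 Y B A : Finset Ω} (hB : B ∈ 𝓑) (h : Y ⊆ B) (hY : Y.Nonempty) (hA : A ⊆ Y)
    (hn : 0 < (dd G 𝓑 Y0 Y A).card) : 1 ≤ lv B (dd G 𝓑 Y0 Y A) :=
  C.lv_pos hB h hY (C.dd_inv Y0 Y hA) (fun _ hx => (mem_dd.1 hx).1) (card_pos.1 hn)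

/-- exchange property. -/
theorem exch {S B : Finset Ω} (hB : B ∈ 𝓑) (h : S ⊆ B) (hS : S.card = t) {y z : Ω} (hyB : y ∈ B)
    (hy : y ∉ S) (hl : 2 * lv B (orb G S y) ≤ t) (hz : z ∈ cl 𝓑 (insert y S)) (hzS : z ∉ S) :
    cl 𝓑 (insert z S) = cl 𝓑 (insert y S) := by
  refine Subset.antisymm (cl_ins ((subset_insert _ _).trans (sub_cl _ _)) hz)
    (cl_ins ((subset_insert _ _).trans (sub_cl _ _)) ?_)
  by_contra hc
  have hzB := cl_sub hB (insert_subset hyB h) hz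
  have a1 := C.lam_half hB (insert_subset hzB h) (insert_nonempty _ _) hc
  have a2 := C.lam_half hB h (C.neS hS) (w := z) (by rwa [C.clS hS])
  have a3 : lam 𝓑 (insert y (insert z S)) = lam 𝓑 (insert y S) := by
    unfold lam
    congr 1; ext B'
    simp only [mem_filter, mem_univ, true_and, and_congr_right_iff]
    exact fun hB' => ⟨fun k => (insert_subset_insert _ (subset_insert _ _)).trans k, fun k =>
      insert_subset (k (mem_insert_self _ _)) (insert_subset (cl_sub hB' k hz)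
        ((subset_insert _ _).trans k))⟩
  have a4 := C.rho hB h y
  have a5 := C.out_big hB h (orb_inv S y) (C.lv_orb hB h (C.neS hS) (w := y) (by rwa [C.clS hS]))
  have a6 := card_sdiff_add_card_inter (orb G S y) B
  rw [lv_eq] at hl
  have a7 : (orb G S y).card ≤ 4 * (orb G S y ∩ B).card := by omega
  have a8 : 0 < (orb G S y).card := card_pos.2 ⟨y, self_orb _ _⟩
  rw [a3] at a1
  have a9 : 4 * lam 𝓑 (insert y S) < lam 𝓑 S := by omega
  nlinarith

theorem pc (Y0 : Finset Ω) {Y : Finset Ω} (H : Hm G Y) (hY : Y.card = t + 1)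
    (hT : (cl 𝓑 Y).card ≤ 2 * t + 1) {z : Ω} (hz : z ∈ cl 𝓑 Y) (hzY : z ∉ Y) :
    pat G Y0 Y z = ∅ ∨ pat G Y0 Y z = Y := by
  by_contra hc
  rw [not_or] at hc
  have h1 : 1 ≤ (pat G Y0 Y z).card := card_pos.2 (nonempty_iff_ne_empty.2 hc.1)
  have h2 : (pat G Y0 Y z).card < t + 1 :=
    hY ▸ card_lt_card (Finset.ssubset_iff_subset_ne.2 ⟨pat_sub _ _ _, hc.2⟩)
  have h3 : powersetCard (pat G Y0 Y z).card Y ⊆ (cl 𝓑 Y \ Y).image (pat G Y0 Y) := by
    intro A hA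
    obtain ⟨a1, a2⟩ := mem_powersetCard.1 hA
    obtain ⟨g, e1, e2⟩ := H _ (pat_sub Y0 Y z) A a1 a2.symm
    refine mem_image.2 ⟨g • z, mem_sdiff.2 ⟨?_, ?_⟩, by rw [← e2, ← pat_smul, e1]⟩
    · rw [← e1, cl_smul C.sm]; exact Finset.smul_mem_smul_finset hz
    · rw [← e1, Finset.smul_mem_smul_finset_iff]; exact hzY
  have h4 := (card_le_card h3).trans card_image_le
  rw [card_powersetCard, card_sdiff_of_subset (sub_cl _ _), hY] at h4
  have := le_choose h1 h2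
  omega

/-- all patterns constant: the colour defines lines, which is impossible. -/
theorem line {Y0 Y1 : Finset Ω} (h0 : Y0.card = t + 1) (h1 : Y1.card = t + 1) (hn : ¬ col G Y0 Y1)
    (hp : ∀ Y, col G Y0 Y → ∀ z ∉ Y, pat G Y0 Y z = ∅ ∨ pat G Y0 Y z = Y) : False := by
  have ht := C.ht
  -- the exchange rule
  have ex : ∀ (U : Finset Ω) (a b z : Ω), a ∉ U → b ∉ U → z ∉ U → a ≠ b → z ≠ a → z ≠ b →
      col G Y0 (insert a (insert b U)) → col G Y0 (insert z (insert b U)) →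
      col G Y0 (insert z (insert a U)) := by
    intro U a b z ha hb hz hab hza hzb k1 k2
    have e1 : (insert a (insert b U)).erase a = insert b U :=
      erase_insert (by simp [hab, ha])
    have e2 : (insert a (insert b U)).erase b = insert a U := by
      rw [insert_comm]; exact erase_insert (by simp [hab.symm, hb])
    rcases hp _ k1 z (by simp [hz, hza, hzb]) with e | e
    · exact absurd (mem_pat.2 ⟨mem_insert_self _ _, e1.symm ▸ k2⟩) (by rw [e]; simp)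
    · have : b ∈ pat G Y0 (insert a (insert b U)) z := by rw [e]; simp
      exact e2 ▸ (mem_pat.1 this).2
  obtain ⟨B, hB⟩ := C.ne
  have hf := C.hf B hB
  obtain ⟨S, hS, hc⟩ := exists_subset_card_eq (s := B) (n := t) (by omega)
  obtain ⟨d0, hd0⟩ := C.cc_ne h1 hc
  obtain ⟨g, hg, hdB⟩ := C.meet hB hS hc (mem_cc.1 hd0).1
  obtain ⟨hdS, hd⟩ := mem_cc.1 (cc_inv Y1 S g hg d0 hd0)
  generalize g • d0 = d at hdB hdS hd
  have hd' : ¬ col G Y0 (insert d S) := fun k => hn (k.trans hd.symm)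
  obtain ⟨s, hs, s', hs', hss⟩ := one_lt_card.1 (by omega : 1 < S.card)
  obtain ⟨U, hsU, hsU', rfl⟩ : ∃ U : Finset Ω, s ∉ U ∧ s' ∉ U ∧ S = insert s' (insert s U) :=
    ⟨(S.erase s').erase s, notMem_erase _ _, fun k => notMem_erase _ _ (mem_of_mem_erase k),
      by rw [insert_erase (mem_erase.2 ⟨hss, hs⟩), insert_erase hs']⟩
  simp only [mem_insert, not_or] at hdS
  have hU : (insert d U).card + 1 = t := by
    rw [card_insert_of_notMem (by simp [hss.symm, hsU']), card_insert_of_notMem hsU] at hc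
    rw [card_insert_of_notMem hdS.2.2]; exact hc
  have hUB : insert d U ⊆ B :=
    insert_subset hdB (((subset_insert _ _).trans (subset_insert _ _)).trans hS)
  obtain ⟨V, hV⟩ : ∃ V, V = insert d U := ⟨_, rfl⟩
  rw [← hV] at hU hUB
  have hi : ∀ x ∉ V, (insert x V).card = t := fun x hx => by rw [card_insert_of_notMem hx, hU]
  -- classes
  obtain ⟨c, hcd⟩ : ∃ c : Ω → Finset Ω, ∀ x, c x = insert x (cc G Y0 (insert x V)) :=
    ⟨_, fun _ => rfl⟩
  have mc : ∀ x y, y ∈ c x ↔ y = x ∨ (y ∉ V ∧ y ≠ x ∧ col G Y0 (insert y (insert x V))) := by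
    intro x y; rw [hcd, mem_insert, mem_cc, mem_insert]; tauto
  have c1 : ∀ x ∉ V, ∀ y ∈ c x, y ∉ V ∧ c y ⊆ c x := by
    intro x hx y hy
    rcases (mc x y).1 hy with rfl | ⟨y1, y2, y3⟩
    · exact ⟨hx, Subset.rfl⟩
    refine ⟨y1, fun z hz => ?_⟩
    rcases (mc y z).1 hz with rfl | ⟨z1, z2, z3⟩
    · exact hy
    by_cases hzx : z = x
    · exact (mc x z).2 (Or.inl hzx)
    exact (mc x z).2 (Or.inr ⟨z1, hzx, ex V x y z hx y1 z1 (Ne.symm y2) hzx z2
      (insert_comm x y V ▸ y3) z3⟩)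
  have c2 : ∀ x ∉ V, ∀ y ∈ c x, c y = c x := by
    intro x hx y hy
    refine Subset.antisymm (c1 x hx y hy).2 (c1 y (c1 x hx y hy).1 x ?_).2
    rcases (mc x y).1 hy with rfl | ⟨y1, y2, y3⟩
    · exact hy
    · exact (mc y x).2 (Or.inr ⟨hx, Ne.symm y2, insert_comm y x V ▸ y3⟩)
  have c0 : ∀ x, x ∈ c x := fun x => (mc x x).2 (Or.inl rfl)
  have cls : ∀ X : Finset Ω, (∀ x ∈ X, x ∉ V) → (∀ x ∈ X, c x ⊆ X) →
      ∀ x ∈ X, c x ⊆ X ∧ x ∈ c x ∧ ∀ y ∈ c x, c y = c x :=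
    fun X h1 h2 x hx => ⟨h2 x hx, c0 x, c2 x (h1 x hx)⟩
  have hX1 : ∀ x ∈ univ \ V, x ∉ V := fun x hx => (mem_sdiff.1 hx).2
  have hX2 : ∀ x ∈ univ \ V, c x ⊆ univ \ V := fun x hx y hy =>
    mem_sdiff.2 ⟨mem_univ _, (c1 x (hX1 x hx) y hy).1⟩
  obtain ⟨L, hL⟩ : ∃ L, L = lv B (cc G Y0 (insert s' (insert s U))) := ⟨_, rfl⟩
  have L1 : 1 ≤ L := hL ▸ C.cc_pos h0 hc hB hS
  have hbig : t < (cc G Y0 (insert s' (insert s U))).card :=
    (C.out_big hB hS (cc_inv _ _) (hL ▸ L1)).trans_le (card_le_card sdiff_subset)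
  have lc : ∀ x ∉ V, lv B (c x) = L - 1 ∨ (t : ℤ) < lv B (c x) := by
    intro x hx
    rcases (c x ∩ B).eq_empty_or_nonempty with e | ⟨y, hy⟩
    · right
      rw [lv_eq, e, hcd, card_insert_of_notMem (fun k => (mem_cc.1 k).1 (mem_insert_self _ _)),
        C.cc_card Y0 (hi x hx) hc, card_empty]
      omega
    · left
      obtain ⟨y1, y2⟩ := mem_inter.1 hy
      have y3 := (c1 x hx y y1).1
      rw [← c2 x hx y y1, hcd, hL, C.cc_lv Y0 hc (hi y y3) hB hB hS (insert_subset y2 hUB)]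
      unfold lv
      rw [sum_insert (fun k => (mem_cc.1 k).1 (mem_insert_self _ _)), if_pos y2]; ring
  have tot := C.lv_compl hB hUB
  rcases L1.eq_or_lt with e | L2
  · by_cases k : ∀ x ∉ V, lv B (c x) = L - 1
    · have := sum_cls c (fun y => -(if y ∈ B then (-1 : ℤ) else 1)) _ (cls _ hX1 hX2) fun x hx => by
        have := k x (hX1 x hx)
        unfold lv at this
        rw [sum_neg_distrib, this]; omega
      unfold lv at tot
      rw [sum_neg_distrib, tot] at this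
      omega
    · push Not at k
      obtain ⟨x, hx, hx'⟩ := k
      have h3 := (lc x hx).resolve_left hx'
      have hs3 := hX2 x (mem_sdiff.2 ⟨mem_univ _, hx⟩)
      have := card_le_lv c B ((univ \ V) \ c x) ∅ (empty_subset _)
        (cls _ (fun y hy => hX1 y (mem_sdiff.1 hy).1) fun y hy z hz => by
          obtain ⟨y1, y2⟩ := mem_sdiff.1 hy
          refine mem_sdiff.2 ⟨hX2 y y1 hz, fun k => y2 ?_⟩
          rw [← c2 x hx z k, c2 y (hX1 y y1) z hz]; exact c0 y)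
        (fun y hy => by
          have := lc y (hX1 y (mem_sdiff.1 hy).1)
          simp only [inter_empty, card_empty]; omega)
      rw [lv_sdiff _ hs3, tot] at this
      simp only [card_empty] at this
      omega
  · have hR : ∀ x ∈ cc G Y0 (insert s' (insert s U)), x ≠ s' ∧ x ≠ s ∧ x ∉ U ∧ x ≠ d ∧
        col G Y0 (insert x (insert s' (insert s U))) := fun x hx => by
      obtain ⟨x1, x2⟩ := mem_cc.1 hx
      simp only [mem_insert, not_or] at x1
      exact ⟨x1.1, x1.2.1, x1.2.2, by rintro rfl; exact hd' x2, x2⟩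
    have := card_le_lv c B (univ \ V) (cc G Y0 (insert s' (insert s U)))
      (fun x hx => by
        obtain ⟨-, -, x3, x4, -⟩ := hR x hx
        rw [hV]; simp [x3, x4]) (cls _ hX1 hX2) (fun x hx => by
        have : (c x ∩ cc G Y0 (insert s' (insert s U))).card ≤ 1 := card_le_one.2 fun a ha b hb => by
          by_contra hab
          obtain ⟨a1, a2, a3, a4, a5⟩ := hR a (mem_inter.1 ha).2
          obtain ⟨b1, b2, b3, b4, b5⟩ := hR b (mem_inter.1 hb).2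
          have k0 : a ∈ c b := by
            rw [c2 x (hX1 x hx) b (mem_inter.1 hb).1]; exact (mem_inter.1 ha).1
          obtain ⟨-, -, k1⟩ := ((mc b a).1 k0).resolve_left hab
          -- `U + s + a + b` has the colour
          have k2 : col G Y0 (insert b (insert a (insert s U))) :=
            ex (insert s U) a s' b (by simp [a2, a3]) (by simp [hss.symm, hsU']) (by simp [b2, b3])
              a1 (Ne.symm hab) b1 a5 b5
          -- `U + a + b + d` has the colour, hence `U + a + s + d`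
          have k3 : col G Y0 (insert d (insert s (insert a U))) :=
            ex (insert a U) s b d (by simp [Ne.symm a2, hsU]) (by simp [Ne.symm hab, b3])
              (by simp [Ne.symm a4, hdS.2.2]) (Ne.symm b2) hdS.2.1 (Ne.symm b4)
              (by rwa [insert_comm s b, insert_comm s a])
              (by rw [hV] at k1; rwa [insert_comm d b, insert_comm d a, insert_comm b a])
          exact hd' (ex (insert s U) s' a d (by simp [hss.symm, hsU']) (by simp [a2, a3])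
            (by simp [hdS.2.1, hdS.2.2]) (Ne.symm a1) hdS.1 (Ne.symm a4)
            (by rwa [insert_comm]) (by rwa [insert_comm a s]))
        have := lc x (hX1 x hx)
        omega)
    omega

/-- the structure of a colour of level at most `t/2`. -/
theorem key {Y0 Y1 : Finset Ω} (h0 : Y0.card = t + 1) (h1 : Y1.card = t + 1) (hn : ¬ col G Y0 Y1)
    {L : ℤ} (hL : ∀ B ∈ 𝓑, ∀ S ⊆ B, S.card = t → lv B (cc G Y0 S) = L) (h2 : 2 * L ≤ t) :
    2 * L = t ∧ ∀ Y, col G Y0 Y → ∀ y ∈ Y,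
      ((cc G Y0 (Y.erase y)).card : ℤ) = L + t * (dd G 𝓑 Y0 Y (Y.erase y)).card ∧
      (∀ B ∈ 𝓑, Y ⊆ B → lv B (dd G 𝓑 Y0 Y (Y.erase y)) = 1) ∧
      ∀ z ∉ Y, y ∉ pat G Y0 Y z → z ∈ dd G 𝓑 Y0 Y (Y.erase y) ∨ pat G Y0 Y z = ∅ := by
  have ht := C.ht
  have H := fun Y hY => C.hm_two h0 h1 hn (Y := Y) hY
  have cY : ∀ Y, col G Y0 Y → Y.card = t + 1 := fun Y hY => hY.card.trans h0
  have cS : ∀ Y, col G Y0 Y → ∀ y ∈ Y, (Y.erase y).card = t := fun Y hY y hy => by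
    rw [card_erase_of_mem hy, cY Y hY]; rfl
  have ym : ∀ Y, col G Y0 Y → ∀ y ∈ Y, y ∈ cc G Y0 (Y.erase y) := fun Y hY y hy =>
    mem_cc.2 ⟨notMem_erase _ _, by rwa [insert_erase hy]⟩
  have E : ∀ Y, col G Y0 Y → ∀ y ∈ Y, ∀ z ∈ cl 𝓑 Y, z ∉ Y.erase y →
      cl 𝓑 (insert z (Y.erase y)) = cl 𝓑 Y := by
    intro Y hY y hy z hz hz'
    obtain ⟨B, hB, h⟩ := C.cov (cY Y hY)
    have hS := (erase_subset y Y).trans h
    have := C.exch hB hS (cS Y hY y hy) (h hy) (notMem_erase _ _) (by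
      have := C.lv_le hB hS (cS Y hY y hy) (cc_inv Y0 _) (orb_inv _ y)
        (fun x hx => (mem_cc.1 hx).1) (orb_sub (cc_inv _ _) (ym Y hY y hy))
      rw [hL B hB _ hS (cS Y hY y hy)] at this
      omega) (by rwa [insert_erase hy]) hz'
    rwa [insert_erase hy] at this
  have hsub : ∀ (Y : Finset Ω) y, Y.erase y ⊆ cl 𝓑 Y := fun Y y =>
    (erase_subset _ _).trans (sub_cl _ _)
  have τ : ∀ Y, col G Y0 Y → (cl 𝓑 Y).card ≤ 2 * t := by
    intro Y hY
    obtain ⟨y, hy⟩ : Y.Nonempty := card_pos.1 (by rw [cY Y hY]; omega)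
    obtain ⟨B, hB, h⟩ := C.cov (cY Y hY)
    have := C.P_le' hB ((erase_subset y Y).trans h) (C.neS (cS Y hY y hy)) (C.clS (cS Y hY y hy))
      (P := cl 𝓑 Y \ Y.erase y) (fun x hx => (mem_sdiff.1 hx).2) (sdiff_subset.trans (cl_sub hB h))
      (fun x hx => E Y hY y hy x (mem_sdiff.1 hx).1 (mem_sdiff.1 hx).2)
    rw [card_sdiff_of_subset (hsub Y y), cS Y hY y hy] at this
    omega
  have full : ∀ Y, col G Y0 Y → ∀ z ∈ cl 𝓑 Y, z ∉ Y → pat G Y0 Y z = Y := by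
    intro Y hY z hz hzY
    refine (C.pc Y0 (H Y (cY Y hY)) (cY Y hY) (by have := τ Y hY; omega) hz hzY).resolve_left
      fun e => ?_
    obtain ⟨y, hy, y', hy', hyy⟩ := one_lt_card.1 (by rw [cY Y hY]; omega : 1 < Y.card)
    have hz' : z ∉ Y.erase y := fun k => hzY (mem_of_mem_erase k)
    have e1 := E Y hY y hy z hz hz'
    have e2 : (insert z (Y.erase y)).card = t + 1 := by rw [card_insert_of_notMem hz', cS Y hY y hy]
    have hyz : y ≠ z := by rintro rfl; exact hzY hy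
    rcases C.pc Y0 (H _ e2) e2 (by rw [e1]; have := τ Y hY; omega) (z := y)
      (by rw [e1]; exact sub_cl _ _ hy) (by simp [hyz]) with k | k
    · refine notMem_empty z (k ▸ mem_pat.2 ⟨mem_insert_self _ _, ?_⟩)
      rwa [erase_insert hz', insert_erase hy]
    · have : y' ∈ pat G Y0 (insert z (Y.erase y)) y := by
        rw [k]; exact mem_insert_of_mem (mem_erase.2 ⟨hyy.symm, hy'⟩)
      refine notMem_empty y' (e ▸ mem_pat.2 ⟨hy', ?_⟩)
      convert (mem_pat.1 this).2 using 1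
      have : y' ≠ z := by rintro rfl; exact hzY hy'
      ext x; simp only [mem_insert, mem_erase]; grind
  have Tc : ∀ Y, col G Y0 Y → ∀ y ∈ Y, cl 𝓑 Y \ Y.erase y ⊆ cc G Y0 (Y.erase y) := by
    intro Y hY y hy z hz
    obtain ⟨z1, z2⟩ := mem_sdiff.1 hz
    by_cases hzY : z ∈ Y
    · rw [show z = y by by_contra k; exact z2 (mem_erase.2 ⟨k, hzY⟩)]; exact ym Y hY y hy
    · exact mem_cc.2 ⟨z2, (mem_pat.1 ((full Y hY z z1 hzY).symm ▸ hy)).2⟩
  have sz : ∀ Y, col G Y0 Y → ∀ z ∉ cl 𝓑 Y,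
      pat G Y0 Y z = ∅ ∨ pat G Y0 Y z = Y ∨ (pat G Y0 Y z).card = t := by
    intro Y hY z hz
    by_contra hc
    rw [not_or, not_or] at hc
    have j1 : 1 ≤ (pat G Y0 Y z).card := card_pos.2 (nonempty_iff_ne_empty.2 hc.1)
    have j2 : (pat G Y0 Y z).card < t + 1 :=
      cY Y hY ▸ card_lt_card (Finset.ssubset_iff_subset_ne.2 ⟨pat_sub _ _ _, hc.2.1⟩)
    obtain ⟨y, hy⟩ : Y.Nonempty := card_pos.1 (by rw [cY Y hY]; omega)
    obtain ⟨B, hB, h⟩ := C.cov (cY Y hY)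
    have hS := (erase_subset y Y).trans h
    have hI : ∀ A ∈ powersetCard (pat G Y0 Y z).card (Y.erase y), A ⊆ Y := fun A hA =>
      (mem_powersetCard.1 hA).1.trans (erase_subset _ _)
    have a1 := (C.dd_sum (Y0 := Y0) hB h ⟨y, hy⟩
      (X := (univ \ Y.erase y) \ cc G Y0 (Y.erase y))
      ((((Inv.univ _).sdiff (Inv.self _)).sdiff (cc_inv _ _)).mono (erase_subset _ _))
      (fun x hx k => (mem_sdiff.1 hx).2 (Tc Y hY y hy (mem_sdiff.2 ⟨k,
        (mem_sdiff.1 (mem_sdiff.1 hx).1).2⟩))) _ hI (fun A hA x hx => by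
        obtain ⟨x1, x2⟩ := mem_dd.1 hx
        refine mem_sdiff.2 ⟨mem_sdiff.2 ⟨mem_univ _, fun k => x1 (hsub Y y k)⟩, fun k => ?_⟩
        exact notMem_erase y Y ((mem_powersetCard.1 hA).1
          (x2 ▸ mem_pat.2 ⟨hy, (mem_cc.1 k).2⟩)))).1
    have a2 := card_nsmul_le_sum _ (fun A => lv B (dd G 𝓑 Y0 Y A)) 1 fun A hA =>
      C.dd_pos hB h ⟨y, hy⟩ (hI A hA) (by
        rw [C.dd_card (H Y (cY Y hY)) (hI A hA) (pat_sub Y0 Y z) (mem_powersetCard.1 hA).2]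
        exact card_pos.2 ⟨z, mem_dd.2 ⟨hz, rfl⟩⟩)
    rw [lv_sdiff _ (fun x hx => mem_sdiff.2 ⟨mem_univ _, (mem_cc.1 hx).1⟩), C.lv_compl hB hS,
      cS Y hY y hy] at a1
    rw [card_powersetCard, cS Y hY y hy] at a2
    have a3 := C.cc_pos h0 (cS Y hY y hy) hB hS
    have a4 := le_choose j1 (by omega : _ < t)
    simp only [nsmul_eq_mul, mul_one] at a2
    omega
  have ex : ∀ Y, col G Y0 Y → ∀ y ∈ Y, 0 < (dd G 𝓑 Y0 Y (Y.erase y)).card := by
    by_cases k : ∃ Y, col G Y0 Y ∧ ∃ z ∉ cl 𝓑 Y, (pat G Y0 Y z).card = t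
    · obtain ⟨Y', hY', z, hz, e⟩ := k
      intro Y hY y hy
      obtain ⟨g, rfl⟩ := hY'.symm.trans hY
      rw [C.dd_card (H _ (cY _ hY)) (erase_subset _ _)
        (Finset.smul_finset_subset_smul_finset (a := g) (pat_sub Y0 Y' z))
        (by rw [cS _ hY y hy, card_smul_finset, e]), C.dd_smul, card_smul_finset]
      exact card_pos.2 ⟨z, mem_dd.2 ⟨hz, rfl⟩⟩
    · refine (C.line h0 h1 hn fun Y hY z hz => ?_).elim
      by_cases hz' : z ∈ cl 𝓑 Y
      · exact Or.inr (full Y hY z hz' hz)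
      · rcases sz Y hY z hz' with e | e | e
        exacts [Or.inl e, Or.inr e, absurd ⟨Y, hY, z, hz', e⟩ k]
  have main : ∀ Y, col G Y0 Y → ∀ y ∈ Y, ∀ B ∈ 𝓑, Y ⊆ B → 2 * L = t ∧
      ((cc G Y0 (Y.erase y)).card : ℤ) = L + t * (dd G 𝓑 Y0 Y (Y.erase y)).card ∧
      ∀ y' ∈ Y.erase y, lv B (dd G 𝓑 Y0 Y (Y.erase y')) = 1 := by
    intro Y hY y hy B hB h
    have hS := (erase_subset y Y).trans h
    have hI : ∀ A ∈ (Y.erase y).image Y.erase, A ⊆ Y := fun A hA => by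
      obtain ⟨x, -, rfl⟩ := mem_image.1 hA; exact erase_subset _ _
    have inj : Set.InjOn Y.erase (Y.erase y) := fun a ha b hb e =>
      erase_injOn Y (mem_coe.2 (mem_of_mem_erase ha)) (mem_coe.2 (mem_of_mem_erase hb)) e
    obtain ⟨a1, a1'⟩ := C.dd_sum (Y0 := Y0) hB h ⟨y, hy⟩
      (X := cc G Y0 (Y.erase y) \ (cl 𝓑 Y \ Y.erase y))
      (((cc_inv _ _).mono (erase_subset _ _)).sdiff ((C.cl_inv Y).sdiff
        ((Inv.self _).mono (erase_subset _ _))))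
      (fun x hx k => (mem_sdiff.1 hx).2 (mem_sdiff.2 ⟨k, (mem_cc.1 (mem_sdiff.1 hx).1).1⟩))
      _ hI (fun A hA x hx => by
        obtain ⟨x1, x2⟩ := mem_dd.1 hx
        obtain ⟨y', hy', rfl⟩ := mem_image.1 hA
        refine mem_sdiff.2 ⟨mem_cc.2 ⟨fun k => x1 (hsub Y y k), (mem_pat.1 ?_).2⟩,
          fun k => x1 (mem_sdiff.1 k).1⟩
        rw [x2]; exact mem_erase.2 ⟨(mem_erase.1 hy').1.symm, hy⟩)
    have hTB : cl 𝓑 Y \ Y.erase y ⊆ B := sdiff_subset.trans (cl_sub hB h)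
    have a2 := C.P_le hB hS (C.neS (cS Y hY y hy)) (cc_inv Y0 _)
      (by rw [C.clS (cS Y hY y hy)]; exact fun x hx => (mem_cc.1 hx).1) (Tc Y hY y hy) hTB
      (fun x hx => E Y hY y hy x (mem_sdiff.1 hx).1 (mem_sdiff.1 hx).2)
    rw [sum_image inj, lv_sdiff _ (Tc Y hY y hy), lv_of_sub hTB] at a1 a1'
    rw [hL B hB _ hS (cS Y hY y hy)] at a1 a1' a2
    have a3 : ∀ y' ∈ Y.erase y, 1 ≤ lv B (dd G 𝓑 Y0 Y (Y.erase y')) := fun y' hy' =>
      C.dd_pos hB h ⟨y, hy⟩ (erase_subset _ _) (ex Y hY y' (mem_of_mem_erase hy'))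
    have a4 := sum_le_sum a3
    have a5 : ∑ _i ∈ Y.erase y, (1 : ℤ) = t := by simp [cS Y hY y hy]
    refine ⟨by omega, ?_, fun y' hy' => ((sum_eq_sum_iff_of_le a3).1 (by omega) y' hy').symm⟩
    have a6 := congrArg card (a1' (by omega))
    rw [card_biUnion (fun _ _ _ _ h => dd_disj Y0 Y h), sum_image inj,
      sum_congr rfl (fun y' hy' => C.dd_card (H Y (cY Y hY)) (erase_subset y' Y) (erase_subset y Y)
        (by rw [cS Y hY y hy, cS Y hY y' (mem_of_mem_erase hy')])), sum_const, cS Y hY y hy,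
      card_sdiff_of_subset (Tc Y hY y hy), smul_eq_mul] at a6
    have a7 := card_le_card (Tc Y hY y hy)
    have a8 : (cc G Y0 (Y.erase y)).card = (cl 𝓑 Y \ Y.erase y).card +
      t * (dd G 𝓑 Y0 Y (Y.erase y)).card := by omega
    rw [a8]; push_cast; omega
  refine ⟨?_, fun Y hY y hy => ⟨?_, fun B hB h => ?_, fun z hz hy' => ?_⟩⟩
  · obtain ⟨y, hy⟩ : Y0.Nonempty := card_pos.1 (by omega)
    obtain ⟨B, hB, h⟩ := C.cov h0
    exact (main Y0 (col.refl _) y hy B hB h).1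
  · obtain ⟨B, hB, h⟩ := C.cov (cY Y hY)
    exact (main Y hY y hy B hB h).2.1
  · obtain ⟨y', hy'⟩ := C.neS (cS Y hY y hy)
    exact (main Y hY y' (mem_of_mem_erase hy') B hB h).2.2 y
      (mem_erase.2 ⟨(mem_erase.1 hy').1.symm, hy⟩)
  · have hz' : z ∉ cl 𝓑 Y := fun k => hy' ((full Y hY z k hz).symm ▸ hy)
    rcases sz Y hY z hz' with e | e | e
    · exact Or.inr e
    · exact absurd (e.symm ▸ hy) hy'
    · exact Or.inl (mem_dd.2 ⟨hz', eq_of_subset_of_card_le (subset_erase.2 ⟨pat_sub _ _ _, hy'⟩)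
        (by rw [e, cS Y hY y hy])⟩)

end CB

end Cfsg.Lib.PrF
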