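import Cfsg.Agent.Lib.PrF.E
import Cfsg.Agent.S0748

/-! Fixed points of pronormal subgroups (S3399): the configuration does not exist. -/

set_option autoImplicit false
set_option linter.unusedSectionVars false
set_option maxHeartbeats 400000
open Finset
open scoped Pointwise Classical

namespace Cfsg.Lib.PrF

variable {G Ω : Type} [Group G] [Fintype Ω] [DecidableEq Ω] [MulAction G Ω] {𝓑 : Set (Finset Ω)}

theorem dcount (P Q : Finset Ω) (r r' : Ω → Finset Ω) (h : ∀ a ∈ P, ∀ b ∈ Q, a ∈ r' b ↔ ¬ b ∈ r a)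
    {m m' : ℕ} (hm : ∀ a ∈ P, (Q.filter (· ∈ r a)).card = m)
    (hm' : ∀ b ∈ Q, (P.filter (· ∈ r' b)).card = m') :
    P.card * Q.card = P.card * m + Q.card * m' := by
  have h1 := sum_card_bipartiteAbove_eq_sum_card_bipartiteBelow (s := P) (t := Q)
    (fun a b => ¬ b ∈ r a)
  have h2 : ∀ b ∈ Q, (bipartiteBelow (fun a b => ¬ b ∈ r a) P b).card = m' := fun b hb => by
    rw [← hm' b hb]; unfold bipartiteBelow
    rw [filter_congr fun a ha => h a ha b hb]
  have h3 : ∀ a ∈ P, m + (bipartiteAbove (fun a b => ¬ b ∈ r a) Q a).card = Q.card :=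
    fun a ha => by rw [← hm a ha]; exact card_filter_add_card_filter_not _
  have h4 := sum_congr rfl h3
  rw [sum_add_distrib, h1, sum_congr rfl h2] at h4
  simp only [sum_const, smul_eq_mul] at h4
  exact h4.symm

theorem tr_LW {k : ℕ} (h5 : 5 ≤ k) (hk : 2 * k ≤ Fintype.card Ω)
    (one : ∀ Y Y' : Finset Ω, Y.card = k → Y'.card = k → col G Y Y') {S : Finset Ω}
    (hS : S.card + 1 = k) {w w' : Ω} (hw : w ∉ S) (hw' : w' ∉ S) : w' ∈ orb G S w := by
  have := Cfsg.Agent.S0748.result (MulAction.toPermHom G Ω).range h5 hk ⟨fun a b => by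
    obtain ⟨g, hg⟩ := one a b a.2 b.2
    exact ⟨⟨_, MonoidHom.mem_range.2 ⟨g, rfl⟩⟩,
      Subtype.ext (Set.powersetCard.coe_smul.trans hg)⟩⟩
  have hc : (insert w S).card = k := by rw [card_insert_of_notMem hw, hS]
  let x : Fin k ↪ Ω := (equivFinOfCardEq hc).symm.toEmbedding.trans (Function.Embedding.subtype _)
  obtain ⟨⟨_, g, rfl⟩, hg⟩ := MulAction.isMultiplyPretransitive_iff.1 this x
    (x.trans (Equiv.swap w w').toEmbedding)
  have hg' : ∀ s ∈ insert w S, g • s = Equiv.swap w w' s := fun s hs => by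
    have := congrArg (fun f : Fin k ↪ Ω => f (equivFinOfCardEq hc ⟨s, hs⟩)) hg
    simpa [x] using this
  refine mem_orb.2 ⟨g, fun s hs => ?_, by rw [hg' w (mem_insert_self _ _), Equiv.swap_apply_left]⟩
  rw [hg' s (mem_insert_of_mem hs), Equiv.swap_apply_of_ne_of_ne]
  · rintro rfl; exact hw hs
  · rintro rfl; exact hw' hs

/-- order of the pointwise stabilizer. -/
noncomputable def nf (G : Type) [Group G] [Fintype G] [MulAction G Ω] (S : Finset Ω) : ℕ :=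
  (univ.filter fun g : G => Fx S g).card

theorem nf_pos [Fintype G] (S : Finset Ω) : 0 < nf G S := card_pos.2 ⟨1, by simp [Fx.one]⟩

theorem nf_col [Fintype G] {S S' : Finset Ω} (h : col G S S') : nf G S = nf G S' := by
  obtain ⟨g, rfl⟩ := h
  refine card_bij (fun h _ => g * h * g⁻¹) ?_ ?_ ?_
  · intro h hh
    simp only [mem_filter, mem_univ, true_and] at hh ⊢
    exact hh.conj g
  · intro a _ b _ e; simpa using e
  · intro h hh
    simp only [mem_filter, mem_univ, true_and] at hh ⊢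
    exact ⟨g⁻¹ * h * g⁻¹⁻¹, by simpa using hh.conj g⁻¹, by group⟩

theorem nf_orb [Fintype G] (S : Finset Ω) (w : Ω) :
    nf G S = (orb G S w).card * nf G (insert w S) := by
  unfold nf
  rw [card_eq_sum_card_fiberwise (f := fun g : G => g • w) (t := orb G S w)
    (fun g hg => mem_coe.2 (mem_orb.2 ⟨g, (mem_filter.1 hg).2, rfl⟩)), ← smul_eq_mul, ← sum_const]
  refine sum_congr rfl fun x hx => ?_
  obtain ⟨k, hk, rfl⟩ := mem_orb.1 hx
  symm
  refine card_bij (fun h _ => k * h) ?_ ?_ ?_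
  · intro h hh
    simp only [mem_filter, mem_univ, true_and] at hh ⊢
    exact ⟨hk.mul (hh.mono (subset_insert _ _)), by rw [mul_smul, hh w (mem_insert_self _ _)]⟩
  · intro a _ b _ e; simpa using e
  · intro h hh
    simp only [mem_filter, mem_univ, true_and] at hh ⊢
    refine ⟨k⁻¹ * h, fun s hs => ?_, by group⟩
    rcases mem_insert.1 hs with rfl | hs
    · rw [mul_smul, hh.2, inv_smul_smul]
    · exact hk.inv.mul hh.1 s hs

namespace CB
variable {t : ℕ} (C : CB G 𝓑 t)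
include C

theorem two_aux {Y0 Y1 : Finset Ω} (h0 : Y0.card = t + 1) (h1 : Y1.card = t + 1)
    (hn : ¬ col G Y0 Y1) {L0 L1 : ℤ}
    (hL0 : ∀ B ∈ 𝓑, ∀ S ⊆ B, S.card = t → lv B (cc G Y0 S) = L0)
    (hL1 : ∀ B ∈ 𝓑, ∀ S ⊆ B, S.card = t → lv B (cc G Y1 S) = L1) (h2 : 2 * L0 ≤ t) : False := by
  have ht := C.ht
  have hn' : ¬ col G Y1 Y0 := fun k => hn k.symm
  obtain ⟨B, hB⟩ := C.ne
  have hf := C.hf B hB
  obtain ⟨S, hS, hc⟩ := exists_subset_card_eq (s := B) (n := t) (by omega)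
  obtain ⟨e0, K0⟩ := C.key h0 h1 hn hL0 h2
  have add : ∀ B ∈ 𝓑, ∀ S ⊆ B, S.card = t →
      L0 + L1 + lv B (((univ \ S) \ cc G Y0 S) \ cc G Y1 S) = t := fun B hB S hS hc => by
    rw [← hL0 B hB S hS hc, ← hL1 B hB S hS hc]; exact C.cc_add hn hc hB hS
  obtain ⟨e1, K1⟩ := C.key h1 h0 hn' hL1 (by
    have := add B hB S hS hc
    have := C.lv_nonneg hB hS (C.neS hc) (C.rest_inv Y0 Y1 _) (C.rest_out hc)
    omega)
  have all : ∀ S : Finset Ω, S.card = t → ∀ x ∉ S, ¬ col G Y0 (insert x S) →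
      col G Y1 (insert x S) := by
    intro S hc x hx k
    by_contra k'
    obtain ⟨B, hB, hS⟩ := C.cov_t hc.le
    have := C.lv_pos hB hS (C.neS hc) (C.rest_inv Y0 Y1 _) (C.rest_out hc)
      ⟨x, by simp [mem_cc, hx, k, k']⟩
    have := add B hB S hS hc
    omega
  have all' : ∀ S : Finset Ω, S.card = t → ∀ x ∉ S, ¬ col G Y1 (insert x S) →
      col G Y0 (insert x S) := fun S hc x hx k => by_contra fun k' => k (all S hc x hx k')
  -- numbers attached to one colour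
  have num : ∀ {Y0 Y1 : Finset Ω} {L : ℤ}, Y0.card = t + 1 → 2 * L = t → lv B (cc G Y0 S) = L →
      (∀ x ∉ S, ¬ col G Y0 (insert x S) → col G Y1 (insert x S)) →
      (∀ Y, col G Y0 Y → ∀ y ∈ Y,
      ((cc G Y0 (Y.erase y)).card : ℤ) = L + t * (dd G 𝓑 Y0 Y (Y.erase y)).card ∧
      (∀ B ∈ 𝓑, Y ⊆ B → lv B (dd G 𝓑 Y0 Y (Y.erase y)) = 1) ∧
      ∀ z ∉ Y, y ∉ pat G Y0 Y z → z ∈ dd G 𝓑 Y0 Y (Y.erase y) ∨ pat G Y0 Y z = ∅) →
      ∃ w : ℕ, ((cc G Y0 S).card : ℤ) = L * (4 * w + 3) ∧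
        ((cc G Y0 S ∩ B).card : ℤ) = L * (2 * w + 1) ∧
        (∀ a ∈ cc G Y0 S, ((cc G Y1 S).filter (· ∈ dd G 𝓑 Y0 (insert a S) S)).card = 2 * w + 1) ∧
        ∀ a ∈ cc G Y0 S ∩ B,
          ((cc G Y1 S ∩ B).filter (· ∈ dd G 𝓑 Y0 (insert a S) S)).card = w := by
    intro Y0 Y1 L h0 e hL all K
    have sub : ∀ a ∈ cc G Y0 S, dd G 𝓑 Y0 (insert a S) S ⊆ cc G Y1 S := fun a ha x hx => by
      obtain ⟨x1, x2⟩ := mem_dd.1 hx
      have x3 : x ∉ S := fun k => x1 (sub_cl _ _ (mem_insert_of_mem k))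
      refine mem_cc.2 ⟨x3, all x x3 fun k => (mem_cc.1 ha).1 ?_⟩
      rw [← x2]
      exact mem_pat.2 ⟨mem_insert_self _ _, by rwa [erase_insert (mem_cc.1 ha).1]⟩
    have k1 : ∀ a ∈ cc G Y0 S, ((cc G Y0 S).card : ℤ) = L + t * (dd G 𝓑 Y0 (insert a S) S).card :=
      fun a ha => by
        have := (K _ (mem_cc.1 ha).2 a (mem_insert_self _ _)).1
        rwa [erase_insert (mem_cc.1 ha).1] at this
    have k2 : ∀ a ∈ cc G Y0 S ∩ B, ((dd G 𝓑 Y0 (insert a S) S).card : ℤ) =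
        2 * (dd G 𝓑 Y0 (insert a S) S ∩ B).card + 1 := fun a ha => by
      obtain ⟨a1, a2⟩ := mem_inter.1 ha
      have := (K _ (mem_cc.1 a1).2 a (mem_insert_self _ _)).2.1 B hB (insert_subset a2 hS)
      rw [erase_insert (mem_cc.1 a1).1, lv_eq] at this
      omega
    obtain ⟨a0, ha0⟩ := C.cc_ne h0 hc
    obtain ⟨g, hg, hB0⟩ := C.meet hB hS hc (mem_cc.1 ha0).1
    have ha := mem_inter.2 ⟨cc_inv Y0 S g hg a0 ha0, hB0⟩
    generalize g • a0 = a at ha
    have k3 : ∀ b ∈ cc G Y0 S, (dd G 𝓑 Y0 (insert b S) S).card = (dd G 𝓑 Y0 (insert a S) S).card :=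
      fun b hb => by
        have := (k1 b hb).symm.trans (k1 a (mem_inter.1 ha).1)
        have ht' : (t : ℤ) ≠ 0 := by omega
        exact_mod_cast mul_left_cancel₀ ht' (add_left_cancel this)
    have k4 := k1 a (mem_inter.1 ha).1
    have k5 := k2 a ha
    rw [lv_eq] at hL
    refine ⟨(dd G 𝓑 Y0 (insert a S) S ∩ B).card, by rw [k4, k5, ← e]; ring, ?_, fun b hb => ?_,
      fun b hb => ?_⟩
    · rw [k5, ← e] at k4; linarith
    · rw [filter_mem_eq_inter, inter_eq_right.2 (sub b hb), k3 b hb]; omega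
    · rw [filter_mem_eq_inter, inter_comm, ← inter_assoc,
        inter_eq_left.2 (sub b (mem_inter.1 hb).1)]
      have := k2 b hb
      rw [k3 b (mem_inter.1 hb).1] at this
      omega
  obtain ⟨w0, a1, a2, a3, a4⟩ := num h0 e0 (hL0 B hB S hS hc) (all S hc) K0
  obtain ⟨w1, b1, b2, b3, b4⟩ := num h1 e1 (hL1 B hB S hS hc) (all' S hc) K1
  have rel : ∀ a ∈ cc G Y0 S, ∀ b ∈ cc G Y1 S,
      a ∈ dd G 𝓑 Y1 (insert b S) S ↔ ¬ b ∈ dd G 𝓑 Y0 (insert a S) S := by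
    intro a ha b hb
    obtain ⟨x1, x2⟩ := mem_cc.1 ha
    obtain ⟨y1, y2⟩ := mem_cc.1 hb
    have hab : a ≠ b := by rintro rfl; exact hn (x2.trans y2.symm)
    obtain ⟨s, hs⟩ := C.neS hc
    have hsa : s ≠ a := by rintro rfl; exact x1 hs
    have hsb : s ≠ b := by rintro rfl; exact y1 hs
    have e : insert b ((insert a S).erase s) = insert a ((insert b S).erase s) := by
      ext x; simp only [mem_insert, mem_erase]; grind
    have p0 := (K0 _ x2 a (mem_insert_self _ _)).2.2 b (by simp [hab.symm, y1])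
      (fun k => hn ((erase_insert x1 ▸ (mem_pat.1 k).2 : col G Y0 (insert b S)).trans y2.symm))
    have p1 := (K1 _ y2 b (mem_insert_self _ _)).2.2 a (by simp [hab, x1])
      (fun k => hn' ((erase_insert y1 ▸ (mem_pat.1 k).2 : col G Y1 (insert a S)).trans x2.symm))
    rw [erase_insert x1] at p0
    rw [erase_insert y1] at p1
    constructor
    · intro k k'
      have q0 : s ∈ pat G Y0 (insert a S) b := by rw [(mem_dd.1 k').2]; exact hs
      have q1 : s ∈ pat G Y1 (insert b S) a := by rw [(mem_dd.1 k).2]; exact hs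
      exact hn ((mem_pat.1 q0).2.trans (e ▸ (mem_pat.1 q1).2.symm))
    · intro k
      refine p1.resolve_right fun k' => ?_
      have q0 : s ∉ pat G Y0 (insert a S) b := by rw [p0.resolve_left k]; simp
      have q1 : s ∉ pat G Y1 (insert b S) a := by rw [k']; simp
      refine q1 (mem_pat.2 ⟨mem_insert_of_mem hs, e ▸ all _ ?_ b (by simp [hab.symm, y1])
        fun k => q0 (mem_pat.2 ⟨mem_insert_of_mem hs, k⟩)⟩)
      rw [card_erase_of_mem (mem_insert_of_mem hs), card_insert_of_notMem x1, hc]; rfl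
  have d1 := dcount _ _ (fun a => dd G 𝓑 Y0 (insert a S) S)
    (fun b => dd G 𝓑 Y1 (insert b S) S) rel a3 b3
  have d2 := dcount _ _ (fun a => dd G 𝓑 Y0 (insert a S) S)
    (fun b => dd G 𝓑 Y1 (insert b S) S)
    (fun a ha b hb => rel a (mem_inter.1 ha).1 b (mem_inter.1 hb).1) a4 b4
  zify at d1 d2
  rw [a1, b1] at d1
  rw [a2, b2] at d2
  obtain rfl : L1 = L0 := by omega
  have hL : (0 : ℤ) < L1 := by omega
  have d3 : L1 * (4 * w0 + 3) * (4 * w1 + 3) = (4 * w0 + 3) * (2 * w0 + 1) +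
      (4 * w1 + 3) * (2 * w1 + 1) := mul_left_cancel₀ hL.ne' (by linarith)
  have d4 : L1 * (2 * w0 + 1) * (2 * w1 + 1) = (2 * w0 + 1) * w0 + (2 * w1 + 1) * w1 :=
    mul_left_cancel₀ hL.ne' (by linarith)
  have d5 : L1 * (4 * (w0 + w1) + 5) = 6 * (w0 + w1) + 6 := by linarith
  rcases (by omega : L1 = 1 ∨ 2 ≤ L1) with rfl | h
  · omega
  · nlinarith

theorem two {Y0 Y1 : Finset Ω} (h0 : Y0.card = t + 1) (h1 : Y1.card = t + 1)
    (hn : ¬ col G Y0 Y1) : False := by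
  obtain ⟨B, hB⟩ := C.ne
  have hf := C.hf B hB
  obtain ⟨S, hS, hc⟩ := exists_subset_card_eq (s := B) (n := t) (by omega)
  have hL : ∀ Y, ∀ B' ∈ 𝓑, ∀ S' ⊆ B', S'.card = t → lv B' (cc G Y S') = lv B (cc G Y S) :=
    fun Y B' hB' S' hS' hc' => C.cc_lv Y hc' hc hB' hB hS' hS
  have := C.cc_add hn hc hB hS
  have := C.lv_nonneg hB hS (C.neS hc) (C.rest_inv Y0 Y1 _) (C.rest_out hc)
  by_cases k : 2 * lv B (cc G Y0 S) ≤ t
  · exact C.two_aux h0 h1 hn (hL Y0) (hL Y1) k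
  · exact C.two_aux h1 h0 (fun k => hn k.symm) (hL Y1) (hL Y0) (by omega)

theorem one [Fintype G] (h3 : t ≤ 3) (hT : ¬ Tr G Ω (t + 1))
    (one : ∀ Y Y' : Finset Ω, Y.card = t + 1 → Y'.card = t + 1 → col G Y Y')
    (hcl : ∀ Y : Finset Ω, Y.card = t + 1 → cl 𝓑 Y = Y) : False := by
  have ht := C.ht
  obtain ⟨B0, hB0⟩ := C.ne
  have hf := C.hf B0 hB0
  obtain ⟨S0, hS0, hc0⟩ := exists_subset_card_eq (s := B0) (n := t) (by omega)
  obtain ⟨y0, -, hy0⟩ := exists_mem_notMem_of_card_lt_card (s := S0) (t := B0) (by omega)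
  have ci : ∀ S : Finset Ω, S.card = t → ∀ w ∉ S, (insert w S).card = t + 1 := fun S hc w hw => by
    rw [card_insert_of_notMem hw, hc]
  obtain ⟨s, hs⟩ : ∃ s, ∀ S : Finset Ω, S.card = t → ∀ w ∉ S, (orb G S w).card = s := by
    refine ⟨(orb G S0 y0).card, fun S hc w hw => ?_⟩
    have e1 := nf_col (G := G) (C.h.hm (hc.trans hc0.symm) hc.le)
    rw [nf_orb S w, nf_orb S0 y0, nf_col (one _ _ (ci S hc w hw) (ci S0 hc0 y0 hy0))] at e1
    exact Nat.eq_of_mul_eq_mul_right (nf_pos _) e1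
  have l1 : ∀ B ∈ 𝓑, ∀ S ⊆ B, S.card = t → ∀ w ∉ S, lv B (orb G S w) = 1 := by
    intro B hB S hS hc w hw
    obtain ⟨w', hw', k⟩ : ∃ w' ∉ S, w' ∉ orb G S w := by
      by_contra k
      push Not at k
      exact hT (C.h.succ hc fun a ha b hb => by rw [orb_eq (k a ha)]; exact k b hb)
    have a1 := C.lv_orb hB hS (C.neS hc) (w := w) (by rwa [C.clS hc])
    have a2 := C.lv_orb hB hS (C.neS hc) (w := w') (by rwa [C.clS hc])
    have hX := ((Inv.univ (G := G) S).sdiff (Inv.self S)).sdiff (orb_inv S w)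
    have a3 := C.lv_le hB hS hc hX (orb_inv S w')
      (fun x hx => (mem_sdiff.1 (mem_sdiff.1 hx).1).2)
      (orb_sub hX (mem_sdiff.2 ⟨mem_sdiff.2 ⟨mem_univ _, hw'⟩, k⟩))
    rw [lv_sdiff _ (fun x hx => mem_sdiff.2 ⟨mem_univ _, C.orb_out hw x hx⟩), C.lv_compl hB hS,
      hc] at a3
    have a4 := lv_eq B (orb G S w)
    have a5 := lv_eq B (orb G S w')
    rw [hs S hc w hw] at a4
    rw [hs S hc w' hw'] at a5
    omega
  have R : ∀ Y : Finset Ω, Y.card = t + 1 → ∀ y ∈ Y, ∀ w ∉ Y,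
      (w ∈ orb G (Y.erase y) y ↔ (orb G Y w).card < s) := by
    intro Y hY y hy w hw
    have hc : (Y.erase y).card = t := by rw [card_erase_of_mem hy, hY]; rfl
    have hw' : w ∉ Y.erase y := fun k => hw (mem_of_mem_erase k)
    have sub : orb G Y w ⊆ orb G (Y.erase y) w :=
      orb_sub ((orb_inv _ _).mono (erase_subset _ _)) (self_orb _ _)
    constructor
    · intro k
      rw [← hs _ hc w hw']
      refine card_lt_card ⟨sub, fun k' => C.orb_out hw y (k' ?_) hy⟩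
      rw [orb_eq k]; exact self_orb _ _
    · intro k
      by_contra k'
      obtain ⟨B, hB, h⟩ := C.cov hY
      have a1 := l1 B hB _ ((erase_subset _ _).trans h) hc w hw'
      have a2 := C.lv_orb hB h ⟨y, hy⟩ (w := w) (by rwa [hcl Y hY])
      have a3 := C.lv_pos hB h ⟨y, hy⟩
        (((orb_inv _ w).mono (erase_subset y Y)).sdiff (orb_inv Y w)) (fun x hx k => by
          rw [hcl Y hY] at k
          obtain ⟨x1, -⟩ := mem_sdiff.1 hx
          by_cases e : x = y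
          · subst e
            exact k' (by rw [orb_eq x1]; exact self_orb _ _)
          · exact C.orb_out hw' x x1 (mem_erase.2 ⟨e, k⟩))
        (sdiff_nonempty.2 fun k'' => by
          have := card_le_card k''
          rw [hs _ hc w hw'] at this; omega)
      rw [lv_sdiff _ sub] at a3
      omega
  obtain ⟨z, hz, hzy⟩ : ∃ z ∈ orb G S0 y0, z ≠ y0 := exists_mem_ne (by
    have := (C.out_big hB0 hS0 (orb_inv S0 y0) (l1 B0 hB0 S0 hS0 hc0 y0 hy0).ge).trans_le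
      (card_le_card sdiff_subset)
    omega) y0
  obtain ⟨Y, hY, hy, rfl⟩ : ∃ Y : Finset Ω, Y.card = t + 1 ∧ y0 ∈ Y ∧ S0 = Y.erase y0 :=
    ⟨_, ci S0 hc0 y0 hy0, mem_insert_self _ _, (erase_insert hy0).symm⟩
  have hzY : z ∉ Y := fun k => C.orb_out hy0 z hz (mem_erase.2 ⟨hzy, k⟩)
  -- all pairs of `Y + z` are good
  have g1 : ∀ a ∈ Y, z ∈ orb G (Y.erase a) a := fun a ha =>
    (R Y hY a ha z hzY).2 ((R Y hY y0 hy z hzY).1 hz)
  have g1' : ∀ a ∈ Y, a ∈ orb G (Y.erase a) z := fun a ha => by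
    rw [orb_eq (g1 a ha)]; exact self_orb _ _
  have g2 : ∀ a ∈ Y, ∀ b ∈ Y, a ≠ b → a ∈ orb G ((insert z (Y.erase a)).erase b) b := by
    intro a ha b hb hab
    have hz' : z ∉ Y.erase a := fun k => hzY (mem_of_mem_erase k)
    have hY' := ci (Y.erase a) (by rw [card_erase_of_mem ha, hY]; rfl) z hz'
    have ha' : a ∉ insert z (Y.erase a) := by
      simp only [mem_insert, notMem_erase, or_false]; rintro rfl; exact hzY ha
    refine (R _ hY' b (mem_insert_of_mem (mem_erase.2 ⟨hab.symm, hb⟩)) a ha').2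
      ((R _ hY' z (mem_insert_self _ _) a ha').1 ?_)
    rw [erase_insert hz']; exact g1' a ha
  refine hT (tr_of_ind C.h (Y := Y) ?_ fun Y' hY' => one Y Y' hY hY')
  rw [eq_top_iff, ← Equiv.Perm.closure_isSwap, Subgroup.closure_le]
  rintro _ ⟨a, b, hab, rfl⟩
  have hab' : a.1 ≠ b.1 := fun e => hab (Subtype.ext e)
  obtain ⟨k1, f1, e1⟩ := mem_orb.1 (g1 a a.2)
  obtain ⟨k2, f2, e2⟩ := mem_orb.1 (g2 a a.2 b b.2 hab')
  obtain ⟨k3, f3, e3⟩ := mem_orb.1 (g1' b b.2)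
  have hzb : z ≠ b := fun e => hzY (e ▸ b.2)
  refine ⟨k3 * k2 * k1, fun y => ?_⟩
  rw [mul_smul, mul_smul, Equiv.swap_apply_def]
  split_ifs with k k'
  · rw [k, e1, f2 z (mem_erase.2 ⟨hzb, mem_insert_self _ _⟩), e3]
  · rw [k', f1 b (mem_erase.2 ⟨hab'.symm, b.2⟩), e2, f3 a (mem_erase.2 ⟨hab', a.2⟩)]
  · have k1' : y.1 ≠ a := fun e => k (Subtype.ext e)
    have k2' : y.1 ≠ b := fun e => k' (Subtype.ext e)
    rw [f1 y (mem_erase.2 ⟨k1', y.2⟩), f2 y (mem_erase.2 ⟨k2', mem_insert_of_mem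
      (mem_erase.2 ⟨k1', y.2⟩)⟩), f3 y (mem_erase.2 ⟨k2', y.2⟩)]

end CB

theorem Cf.false [Fintype G] (C : Cf G 𝓑) : False := by
  have ex : ∃ m, ¬ Tr G Ω (m + 1) := by
    obtain ⟨B, hB⟩ := C.ne
    obtain ⟨x, hx⟩ := C.ex_out hB
    refine ⟨(univ \ B).card, fun h => ?_⟩
    have := C.mu h hB (D := univ \ B) ⟨x, by simp [hx]⟩ sdiff_disjoint
      ((Inv.univ B).sdiff (Inv.self B))
    omega
  have mono : ∀ {a b}, a ≤ b → Tr G Ω b → Tr G Ω a := fun h k S e hS => k S e (hS.trans h)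
  have hT := Nat.find_spec ex
  have ht : 2 ≤ Nat.find ex := by
    by_contra k
    exact hT (mono (by omega) C.step1.2)
  have h : Tr G Ω (Nat.find ex) := by
    have := Nat.find_min ex (m := Nat.find ex - 1) (by omega)
    rw [not_not] at this
    exact mono (by omega) this
  generalize Nat.find ex = t at hT ht h
  obtain ⟨B, hB, B', hB', hne, he, hf⟩ := C.a_big h
  have cc : ∀ {S S' : Finset Ω}, col G S S' → (cl 𝓑 S').card = (cl 𝓑 S).card := by
    rintro S _ ⟨g, rfl⟩; rw [cl_smul C.sm, card_smul_finset]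
  have lt : ∀ {S : Finset Ω}, cl 𝓑 S ≠ S → S.card + 1 ≤ (cl 𝓑 S).card := fun k =>
    card_lt_card (Finset.ssubset_iff_subset_ne.2 ⟨sub_cl _ _, k.symm⟩)
  by_cases hA : ∃ S : Finset Ω, S.card = t ∧ cl 𝓑 S ≠ S
  · obtain ⟨S0, h0, h1⟩ := hA
    refine C.St ht (h0 ▸ lt h1) hB hB' hne he (by omega)
      (fun S _ hc => cc (h.hm (h0.trans hc.symm) h0.le)) fun S hS hc => ?_
    refine Subset.antisymm (fun x hx => ?_) (sub_cl _ _)
    by_contra hxS
    obtain ⟨y, hy⟩ := C.ex_out hB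
    exact hy (cl_sub hB hS (orb_sub (C.cl_inv S) hx (h.two (by omega) hxS fun k => hy (hS k))))
  push Not at hA
  have D : CB G 𝓑 t := ⟨C, h, ht, fun _ _ S _ => hA S, fun B1 h1 => C.card_eq hB h1 ▸ hf⟩
  have one : ∀ Y Y' : Finset Ω, Y.card = t + 1 → Y'.card = t + 1 → col G Y Y' :=
    fun Y Y' h0 h1 => by_contra (D.two h0 h1)
  rcases Nat.lt_or_ge 3 t with h4 | h3
  · obtain ⟨S, -, hc⟩ := exists_subset_card_eq (s := B) (n := t) (by omega)
    exact hT (h.succ hc fun w hw w' hw' => tr_LW (by omega) (by rw [C.n_eq hB]; omega) one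
      (by rw [hc]) hw hw')
  by_cases hcl : ∃ Y : Finset Ω, Y.card = t + 1 ∧ cl 𝓑 Y ≠ Y
  · obtain ⟨Y, h0, h1⟩ := hcl
    exact C.St (t := t + 1) (by omega) (h0 ▸ lt h1) hB hB' hne he (by omega)
      (fun S _ hc => cc (one _ _ h0 hc)) fun S _ hc => hA S (by omega)
  · push Not at hcl
    exact D.one h3 hT one hcl

end Cfsg.Lib.PrF
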