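import Cfsg.Agent.Lib.PrF.F

/-! Fixed points of pronormal subgroups (S3399): the induction. -/

set_option autoImplicit false
set_option linter.unusedSectionVars false
set_option maxHeartbeats 400000
open Finset
open scoped Pointwise Classical

namespace Cfsg.Lib.PrF

section
variable {G : Type} [Group G]

/-- conjugate subgroup. -/
def cj (g : G) (K : Subgroup G) : Subgroup G := K.map (MulAut.conj g).toMonoidHom

/-- pronormal. -/
def Pro (K : Subgroup G) : Prop := ∀ g : G, ∃ w ∈ K ⊔ cj g K, cj w K = cj g K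

theorem mem_cj {g x : G} {K : Subgroup G} : x ∈ cj g K ↔ g⁻¹ * x * g ∈ K := by
  constructor
  · rintro ⟨y, hy, rfl⟩; simpa [mul_assoc] using hy
  · intro h; exact ⟨_, h, by simp [mul_assoc]⟩

theorem cj_mul (g h : G) (K : Subgroup G) : cj (g * h) K = cj g (cj h K) := by
  ext x; simp [mem_cj, mul_assoc]

theorem Pro.conj {K : Subgroup G} (h : Pro K) (g : G) : Pro (cj g K) := by
  intro a
  obtain ⟨w, hw, e⟩ := h (g⁻¹ * a * g)
  refine ⟨g * w * g⁻¹, ?_, ?_⟩
  · have : g * w * g⁻¹ ∈ cj g (K ⊔ cj (g⁻¹ * a * g) K) := ⟨w, hw, rfl⟩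
    have e' : cj a (cj g K) = cj g (cj (g⁻¹ * a * g) K) := by
      rw [← cj_mul, ← cj_mul]; congr 1; group
    rw [e']
    rwa [cj, Subgroup.map_sup] at this
  · rw [← cj_mul, inv_mul_cancel_right, cj_mul, e, ← cj_mul, ← cj_mul]; congr 1; group

theorem pro_sub {K H : Subgroup G} (hK : K ≤ H)
    (h : ∀ g ∈ H, ∃ w ∈ K ⊔ cj g K, cj w K = cj g K) : Pro (K.subgroupOf H) := by
  intro g
  obtain ⟨w, hw, e⟩ := h g g.2
  have key : ∀ a : H, (cj a (K.subgroupOf H)).map H.subtype = cj (a : G) K := fun a => by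
    ext x
    constructor
    · rintro ⟨y, hy, rfl⟩; exact mem_cj.2 (mem_cj (g := a).1 hy)
    · intro hx
      have : x ∈ H := by
        have := H.mul_mem (H.mul_mem a.2 (hK (mem_cj.1 hx))) (H.inv_mem a.2)
        simpa [mul_assoc] using this
      exact ⟨⟨x, this⟩, mem_cj.2 (mem_cj (g := (a : G)).1 hx), rfl⟩
  have : w ∈ (K.subgroupOf H ⊔ cj g (K.subgroupOf H)).map H.subtype := by
    rwa [Subgroup.map_sup, key, Subgroup.subgroupOf_map_subtype, inf_eq_left.2 hK]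
  obtain ⟨w, hw', rfl⟩ := this
  exact ⟨w, hw', Subgroup.map_injective H.subtype_injective (by rw [key, key]; exact e)⟩

end

/-- the statement in degree `n`. -/
def St (n : ℕ) : Prop := ∀ (G : Type) [Group G] [Finite G] (Ω : Type) [Fintype Ω] [MulAction G Ω],
  Fintype.card Ω = n → (∀ x y : Ω, ∃ g : G, g • x = y) → ∀ K : Subgroup G, Pro K →
  (∃ k ∈ K, ∃ x : Ω, k • x ≠ x) → 2 * (univ.filter fun x : Ω => ∀ k ∈ K, k • x = x).card < n

theorem St.rel {G α : Type} [Group G] [Finite G] [MulAction G α] (X : Finset α) (h : St X.card)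
    {K H : Subgroup G} (hK : K ≤ H) (hp : Pro K) (h1 : ∀ g ∈ H, ∀ x ∈ X, g • x ∈ X)
    (h2 : ∀ x ∈ X, ∀ y ∈ X, ∃ g ∈ H, g • x = y) (h3 : ∃ k ∈ K, ∃ x ∈ X, k • x ≠ x) :
    2 * (X.filter fun x => ∀ k ∈ K, k • x = x).card < X.card := by
  letI : MulAction H X :=
    { smul := fun g x => ⟨g.1 • x.1, h1 g g.2 x x.2⟩
      one_smul := fun x => Subtype.ext (one_smul G x.1)
      mul_smul := fun a b x => Subtype.ext (mul_smul a.1 b.1 x.1) }
  have sm : ∀ (g : H) (x : X), (g • x).1 = g.1 • x.1 := fun _ _ => rfl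
  have := h H X (Fintype.card_coe X) (fun x y => by
    obtain ⟨g, hg, e⟩ := h2 x x.2 y y.2
    exact ⟨⟨g, hg⟩, Subtype.ext e⟩) _ (pro_sub hK fun g _ => hp g) (by
    obtain ⟨k, hk, x, hx, e⟩ := h3
    exact ⟨⟨k, hK hk⟩, hk, ⟨x, hx⟩, fun e' => e (congrArg Subtype.val e')⟩)
  convert this using 2
  symm
  refine card_bij (fun x _ => x.1) ?_ (fun a _ b _ e => Subtype.ext e) ?_
  · intro x hx
    simp only [mem_filter, mem_univ, true_and] at hx ⊢
    exact ⟨x.2, fun k hk => congrArg Subtype.val (hx ⟨k, hK hk⟩ hk)⟩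
  · intro x hx
    simp only [mem_filter, mem_univ, true_and] at hx ⊢
    exact ⟨⟨x, hx.1⟩, fun k hk => Subtype.ext (hx.2 k hk), rfl⟩

variable {G Ω : Type} [Group G] [Fintype Ω] [DecidableEq Ω] [MulAction G Ω]

/-- fixed points. -/
noncomputable def fx (Ω : Type) [Fintype Ω] [MulAction G Ω] (K : Subgroup G) : Finset Ω :=
  univ.filter fun x : Ω => ∀ k ∈ K, k • x = x

/-- pointwise stabilizer. -/
def FS (G : Type) [Group G] [MulAction G Ω] (S : Finset Ω) : Subgroup G where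
  carrier := {g | Fx S g}
  one_mem' := Fx.one S
  mul_mem' := Fx.mul
  inv_mem' := Fx.inv

theorem mem_fx {K : Subgroup G} {x : Ω} : x ∈ fx Ω K ↔ ∀ k ∈ K, k • x = x := by simp [fx]

theorem le_FS {K : Subgroup G} {S : Finset Ω} (h : S ⊆ fx Ω K) : K ≤ FS G S :=
  fun k hk s hs => mem_fx.1 (h hs) k hk

theorem fx_cj (g : G) (K : Subgroup G) : fx Ω (cj g K) = g • fx Ω K := by
  ext x
  rw [← Finset.inv_smul_mem_iff, mem_fx, mem_fx]
  constructor
  · intro h k hk
    have := h (g * k * g⁻¹) ⟨k, hk, rfl⟩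
    rwa [mul_smul, mul_smul, ← eq_inv_smul_iff] at this
  · intro h k hk
    have := h _ (mem_cj.1 hk)
    rwa [mul_smul, mul_smul, smul_inv_smul, smul_left_cancel_iff] at this

theorem Pro.stab {K : Subgroup G} (h : Pro K) (g : G) {D : Finset Ω} (h1 : ∀ k ∈ K, k • D = D)
    (h2 : ∀ k ∈ cj g K, k • D = D) (h3 : D ⊆ g • fx Ω K) : D ⊆ fx Ω K := by
  obtain ⟨w, hw, e⟩ := h g
  have : w • D = D := (sup_le (fun k hk => h1 k hk) (fun k hk => h2 k hk) :
    K ⊔ cj g K ≤ MulAction.stabilizer G D) hw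
  rwa [← fx_cj, ← e, fx_cj, ← this, Finset.smul_finset_subset_smul_finset_iff] at h3

theorem main (n : ℕ) : St n := by
  induction n using Nat.strong_induction_on with
  | _ n ih =>
  intro G _ _ Ω _ _ hn tr K hp hK
  by_contra hc
  letI := Fintype.ofFinite G
  have sm : ∀ B ∈ {B | ∃ g : G, B = fx Ω (cj g K)}, ∀ g : G,
      g • B ∈ {B | ∃ g : G, B = fx Ω (cj g K)} := by
    rintro _ ⟨h, rfl⟩ g
    exact ⟨g * h, by rw [cj_mul, fx_cj g]⟩
  have two : ∀ a b : G, cj b K = cj (b * a⁻¹) (cj a K) := fun a b => by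
    rw [← cj_mul, inv_mul_cancel_right]
  refine Cf.false (G := G) (𝓑 := {B | ∃ g : G, B = fx Ω (cj g K)}) ⟨⟨_, 1, rfl⟩, sm, ?_, ?_, ?_, tr,
    ?_, ?_⟩
  · rintro _ ⟨a, rfl⟩ _ ⟨b, rfl⟩
    obtain ⟨w, hw, e⟩ := hp.conj a (b * a⁻¹)
    rw [← two] at hw e
    exact ⟨w, (sup_le (le_FS inter_subset_left) (le_FS inter_subset_right)) hw, by rw [← fx_cj, e]⟩
  · rintro _ ⟨a, rfl⟩ _ ⟨b, rfl⟩ D ⟨d, hd⟩ h1 h2 h3
    refine disjoint_left.1 h2 hd ((hp.conj a).stab (b * a⁻¹)
      (fun k hk => h3.smul_eq (le_FS Subset.rfl hk)) (fun k hk => Fx.smul_eq (le_FS h1 ?_))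
      (by rwa [← fx_cj, ← two]) hd)
    rwa [two a b]
  · rintro _ ⟨a, rfl⟩ S hS w hw ho hlt
    have hp' := hp.conj a
    have hB : fx Ω (cj a K) ∈ {B | ∃ g : G, B = fx Ω (cj g K)} := ⟨a, rfl⟩
    generalize cj a K = K1 at hS hw ho hp' hB ⊢
    generalize {B | ∃ g : G, B = fx Ω (cj g K)} = 𝓑 at sm hlt hB ⊢
    obtain ⟨φ, hφ⟩ : ∃ φ : Ω → Finset Ω, ∀ x, φ x = cl 𝓑 (insert x S) := ⟨_, fun _ => rfl⟩
    have φ1 : ∀ g : G, Fx S g → ∀ x, φ (g • x) = g • φ x := fun g hg x => by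
      rw [hφ, hφ, ← cl_smul sm, Finset.smul_finset_insert, hg.smul_eq]
    have φ0 : ∀ x, x ∈ φ x := fun x => by rw [hφ]; exact sub_cl _ _ (mem_insert_self _ _)
    rw [← hφ] at hlt ⊢
    have fib : ∀ A ∈ (orb G S w).image φ,
        ((orb G S w).filter (φ · = A)).card = (φ w ∩ orb G S w).card := by
      intro A hA
      obtain ⟨x, hx, rfl⟩ := mem_image.1 hA
      obtain ⟨g, hg, rfl⟩ := mem_orb.1 hx
      rw [← card_smul_finset g (φ w ∩ _), Finset.smul_finset_inter, ← φ1 g hg,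
        (orb_inv S w).smul_eq hg]
      congr 1; ext y
      rw [mem_filter, mem_inter, and_comm]
      refine and_congr_left fun hy => ⟨fun e => e ▸ φ0 y, fun k => ?_⟩
      obtain ⟨u, hu, rfl⟩ := mem_orb.1 hy
      refine eq_of_subset_of_card_le ?_ (by rw [φ1 g hg, φ1 u hu, card_smul_finset, card_smul_finset])
      rw [hφ (g • w)] at k ⊢
      rw [hφ]
      exact cl_ins ((subset_insert _ _).trans (sub_cl _ _)) k
    have c1 : (orb G S w).card = ((orb G S w).image φ).card * (φ w ∩ orb G S w).card := by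
      rw [card_eq_sum_card_image φ, sum_congr rfl fib, sum_const, smul_eq_mul]
    have b1 : 0 < (φ w ∩ orb G S w).card := card_pos.2 ⟨w, mem_inter.2 ⟨φ0 w, self_orb _ _⟩⟩
    have c2 := card_le_univ (orb G S w)
    have inv : ∀ g ∈ FS G S, ∀ A ∈ (orb G S w).image φ, g • A ∈ (orb G S w).image φ := by
      intro g hg A hA
      obtain ⟨x, hx, rfl⟩ := mem_image.1 hA
      exact mem_image.2 ⟨_, orb_inv S w g hg x hx, φ1 g hg x⟩
    have c3 := St.rel ((orb G S w).image φ) (ih _ (by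
      rcases hlt with h | h
      · nlinarith
      · have : 0 < ((orb G S w).image φ).card := card_pos.2 ⟨_, mem_image_of_mem φ (self_orb S w)⟩
        nlinarith)) (le_FS hS) hp' inv (by
      intro A hA A' hA'
      obtain ⟨x, hx, rfl⟩ := mem_image.1 hA
      obtain ⟨y, hy, rfl⟩ := mem_image.1 hA'
      rw [← orb_eq hx] at hy
      obtain ⟨g, hg, rfl⟩ := mem_orb.1 hy
      exact ⟨g, hg, (φ1 g hg x).symm⟩) (by
      by_contra k
      push Not at k
      refine ho fun x hx => ?_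
      obtain ⟨g, hg, rfl⟩ := mem_orb.1 hx
      refine hp'.stab g (fun u hu => k u hu _ (mem_image_of_mem φ hx)) (fun u hu => ?_) ?_ (φ0 _)
      · have := k _ (mem_cj.1 hu) _ (mem_image_of_mem φ (self_orb S w))
        rwa [mul_smul, mul_smul, inv_smul_eq_iff, ← φ1 g hg] at this
      · rw [φ1 g hg, Finset.smul_finset_subset_smul_finset_iff, hφ]
        exact cl_sub hB (insert_subset hw hS))
    have c4 : (orb G S w ∩ fx Ω K1).card ≤ (φ w ∩ orb G S w).card *
        (((orb G S w).image φ).filter fun A => ∀ k ∈ K1, k • A = A).card := by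
      refine card_le_mul_card_image_of_maps_to (f := φ) (fun x hx => ?_) _ fun A hA => ?_
      · obtain ⟨x1, x2⟩ := mem_inter.1 hx
        refine mem_filter.2 ⟨mem_image_of_mem φ x1, fun k hk => Fx.smul_eq (le_FS ?_ hk)⟩
        rw [hφ]; exact cl_sub hB (insert_subset x2 hS)
      · rw [← fib A (mem_filter.1 hA).1]
        exact card_le_card (filter_subset_filter _ inter_subset_left)
    rw [lv_eq]
    have : (φ w ∩ orb G S w).card + 2 * (orb G S w ∩ fx Ω K1).card ≤ (orb G S w).card := by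
      have c5 := Nat.mul_le_mul_right (φ w ∩ orb G S w).card (Nat.succ_le_of_lt c3)
      rw [← c1] at c5
      refine le_trans ?_ c5
      rw [Nat.succ_mul (2 * _), mul_assoc, add_comm, mul_comm _ (φ w ∩ orb G S w).card]
      refine Nat.add_le_add_right (Nat.mul_le_mul_left 2 ?_) _
      convert c4
    omega
  · rintro _ ⟨a, rfl⟩
    rw [fx_cj, card_smul_finset, hn]
    exact not_lt.1 hc
  · rintro ⟨a, e⟩
    obtain ⟨k, hk, x, hx⟩ := hK
    have : a • x ∈ fx Ω (cj a K) := e ▸ mem_univ _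
    rw [fx_cj, Finset.smul_mem_smul_finset_iff] at this
    exact hx (mem_fx.1 this k hk)

end Cfsg.Lib.PrF
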